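/-
Project IOd (S3929): the index of the Fitting subgroup in terms of the number of elements of odd order inverted by an
involutory automorphism.  The statements of the steps.
-/
import Cfsg.Agent.Fgs.InvOdd
import Cfsg.Agent.Even.Amb
import Cfsg.Agent.Even.CD
import Cfsg.Statements.S3929

set_option autoImplicit false

open Cfsg Subgroup MulAction
open scoped Nat

namespace CL.IOd

universe u

section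
variable {Γ : Type*} [Group Γ]

/-- the `2 ^ q`-th powers of the members of `X` -/
def pw (X : Set Γ) (q : ℕ) : Set Γ := (fun x => x ^ 2 ^ q) '' X
/-- the norms `b * s b s⁻¹` -/
def nm (A : Subgroup Γ) (s : Γ) : Set Γ := (fun b => b * (s * b * s⁻¹)) '' (A : Set Γ)
/-- the elements of odd order of `G` inverted by `t` -/
def io (G : Subgroup Γ) (t : Γ) : Set Γ := {g | g ∈ G ∧ Odd (orderOf g) ∧ t * g * t⁻¹ = g⁻¹}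
/-- the `G`-class of `t` -/
def cl (G : Subgroup Γ) (t : Γ) : Set Γ := {s | ∃ g ∈ G, s = g * t * g⁻¹}
/-- pairs in the class whose product is a `2`-element -/
def prs (G : Subgroup Γ) (t : Γ) : Set (Γ × Γ) :=
  {x | x.1 ∈ cl G t ∧ x.2 ∈ cl G t ∧ ∃ k : ℕ, (x.1 * x.2) ^ 2 ^ k = 1}
/-- elementwise commutativity -/
def Ab (A : Subgroup Γ) : Prop := ∀ a ∈ A, ∀ b ∈ A, a * b = b * a
/-- the action of `k` on the `X`-orbit of `ω` -/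
def res {Ω : Type*} [MulAction Γ Ω] (X : Subgroup Γ) (ω : Ω) (k : Γ) : orbit X ω → Ω := fun x => k • (x : Ω)

/-- `G` has index two and `t` is an involution outside -/
structure Amb (G : Subgroup Γ) (t : Γ) : Prop where
  idx : G.index = 2
  tG : t ∉ G
  t2 : t * t = 1

end

def NUM : Prop := ∀ a n w : ℕ, 1 ≤ a → 2 ^ (a - 1) ≤ 2 * w → 2 ^ (a * n) < n ! * 2 ^ (a * (w + 1))

def SUMS : Prop := ∀ (ι : Type u) [Fintype ι] (j : ι → ℕ) (p l₀ l₁ l₂ : ℕ), (p + 1) * l₁ ≤ l₀ + p * l₂ →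
  l₁ ≤ ∑ i, (j i - p) → l₂ ≤ ∑ i, (j i - (p + 1)) →
  Fintype.card ι + ∑ i, (j i + (j i).choose 2) + 2 ^ p * l₁ ≤ ∑ i, 2 ^ j i + l₀

def CEN : Prop := ∀ (C : Type u) [Group C] [Finite C] (Ω : Type u) [Finite Ω] [MulAction C Ω] [FaithfulSMul C Ω]
  (ι : Ω → Ω), (∀ x, ι (ι x) = x) → (∀ x, ι x ≠ x) → (∀ (c : C) x, ι (c • x) = c • ι x) →
  Nat.card C ^ 2 ≤ (Nat.card Ω + 1)!

def AUT : Prop := ∀ (R : Type u) [Group R] [Finite R], IsPGroup 2 R → ∀ (j : ℕ) (Y : Subgroup R), Y.Normal →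
  Nat.card Y = 2 ^ j → Nat.card R ≤ Nat.card (centralizer (Y : Set R)) * 2 ^ j.choose 2

def POW : Prop := ∀ (R : Type u) [Group R] [Finite R] (X : Subgroup R), IsPGroup 2 X → Ab X →
  (∀ q, ∃ i, (pw (X : Set R) q).ncard = 2 ^ i) ∧
  (∀ p, (pw (X : Set R) p).ncard ^ (p + 1) ≤ Nat.card X * (pw (X : Set R) (p + 1)).ncard ^ p) ∧
  ∀ j q, Nat.card X = 2 ^ j → (pw (X : Set R) q).ncard ≤ 2 ^ (j - q)

def ORB : Prop := ∀ (Q : Type u) [Group Q] [Finite Q] (Ω : Type u) [Finite Ω] [MulAction Q Ω], IsPGroup 2 Q →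
  ∀ (K X : Subgroup Q), X.Normal → Ab X → X ≤ K → (∀ k ∈ K, ∀ ω : Ω, ∃ x ∈ X, k • ω = x • ω) → ∀ ω : Ω,
  ∃ j, (orbit X ω).ncard = 2 ^ j ∧ (res X ω '' (K : Set Q)).ncard ≤ 2 ^ (j + j.choose 2) ∧
    ∀ q, (res X ω '' pw (X : Set Q) q).ncard ≤ 2 ^ (j - q)

def TOP : Prop := ∀ (Q : Type u) [Group Q] [Finite Q] (Ω : Type u) [Finite Ω] [Nonempty Ω] [MulAction Q Ω],
  IsPGroup 2 Q → ∀ X : Subgroup Q, X.Normal → ∃ K : Subgroup Q, X ≤ K ∧ (∀ k ∈ K, ∀ ω : Ω, ∃ x ∈ X, k • ω = x • ω) ∧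
    2 * K.index ≤ 2 ^ Nat.card (orbitRel.Quotient X Ω)

def KER : Prop := ∀ (Q : Type u) [Group Q] [Finite Q] (Ω : Type u) [Finite Ω] [MulAction Q Ω] [FaithfulSMul Q Ω],
  IsPGroup 2 Q → ∀ (K X : Subgroup Q) [Fintype (orbitRel.Quotient X Ω)], X.Normal → Ab X → X ≤ K →
  (∀ k ∈ K, ∀ ω : Ω, ∃ x ∈ X, k • ω = x • ω) → ∃ j : orbitRel.Quotient X Ω → ℕ, ∑ i, 2 ^ j i = Nat.card Ω ∧
    Nat.card K ≤ 2 ^ ∑ i, (j i + (j i).choose 2) ∧ ∀ q, (pw (X : Set Q) q).ncard ≤ 2 ^ ∑ i, (j i - q)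

def PERM : Prop := ∀ (Q : Type u) [Group Q] [Finite Q] (Ω : Type u) [Finite Ω] [Nonempty Ω] [MulAction Q Ω]
  [FaithfulSMul Q Ω], IsPGroup 2 Q → ∀ X : Subgroup Q, X.Normal → Ab X → ∀ p l, 2 ^ l ≤ (pw (X : Set Q) p).ncard →
  Nat.card Q * 2 ^ (2 ^ p * l + 1) ≤ 2 ^ Nat.card Ω * Nat.card X

/-- `PERM` for the action by conjugation on a subset -/
def PERMA : Prop := ∀ (Γ : Type u) [Group Γ] [Finite Γ] (Q X : Subgroup Γ) (Ω : Set Γ), Ω.Nonempty →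
  (∀ g ∈ Q, ∀ ω ∈ Ω, g * ω * g⁻¹ ∈ Ω) → (∀ g ∈ Q, (∀ ω ∈ Ω, g * ω * g⁻¹ = ω) → g = 1) → IsPGroup 2 Q → X ≤ Q →
  (∀ g ∈ Q, ∀ x ∈ X, g * x * g⁻¹ ∈ X) → Ab X → ∀ p l, 2 ^ l ≤ (pw (X : Set Γ) p).ncard →
  Nat.card Q * 2 ^ (2 ^ p * l + 1) ≤ 2 ^ Ω.ncard * Nat.card X

/-- `CEN` for the action by conjugation on a subset -/
def CENA : Prop := ∀ (Γ : Type u) [Group Γ] [Finite Γ] (Q : Subgroup Γ) (Ω : Set Γ),
  (∀ g ∈ Q, ∀ ω ∈ Ω, g * ω * g⁻¹ ∈ Ω) → (∀ g ∈ Q, (∀ ω ∈ Ω, g * ω * g⁻¹ = ω) → g = 1) →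
  (∀ ω ∈ Ω, ω⁻¹ ∈ Ω) → (∀ ω ∈ Ω, ω⁻¹ ≠ ω) → Nat.card Q ^ 2 ≤ (Ω.ncard + 1)!

def RING : Prop := ∀ (M : Type u) [AddCommGroup M] (j : ℕ) (u : Module.End ℤ M),
  (∀ p r, p + r = j → ∀ m : M, ((u - 1) ^ (2 ^ r : ℕ) : Module.End ℤ M) ((2 ^ p : ℕ) • m) = 0) → u ^ (2 ^ j : ℕ) = 1

def NIL : Prop := ∀ (M : Type u) [AddCommGroup M] [Finite M] (u : Module.End ℤ M) (e k : ℕ), u ^ 2 ^ e = 1 →
  Nat.card M = 2 ^ k → ∀ (l : ℕ) (B : Submodule ℤ M), (∀ b ∈ B, u b ∈ B) → Nat.card B ≤ 2 ^ l →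
  ∀ b ∈ B, ((u - 1) ^ l : Module.End ℤ M) b = 0

def MODa : Prop := ∀ (M : Type u) [AddCommGroup M] [Finite M] (τ σ : Module.End ℤ M) (e k j : ℕ), τ * τ = 1 →
  (τ * σ) ^ 2 ^ e = 1 → Nat.card M = 2 ^ k → (τ * σ) ^ 2 ^ j ≠ 1 → ∃ p l, 2 ^ j ≤ 2 * (2 ^ p * l) ∧
    (2 ^ l ≤ (Set.range fun m : M => (2 ^ p : ℕ) • (m + τ m)).ncard ∨
      2 ^ l ≤ (Set.range fun m : M => (2 ^ p : ℕ) • (m + σ m)).ncard)

def MOD : Prop := ∀ (Γ : Type u) [Group Γ] [Finite Γ] (S A : Subgroup Γ) (t s : Γ) (j : ℕ), IsPGroup 2 S → A ≤ S →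
  (∀ g ∈ S, ∀ a ∈ A, g * a * g⁻¹ ∈ A) → Ab A → t ∈ S → s ∈ S → t * t = 1 →
  (t * s) ^ 2 ^ j ∉ centralizer (A : Set Γ) → ∃ p l, 2 ^ j ≤ 2 * (2 ^ p * l) ∧
    (2 ^ l ≤ (pw (nm A t) p).ncard ∨ 2 ^ l ≤ (pw (nm A s) p).ncard)

def FIBa : Prop := ∀ (H : Type u) [Group H] [Finite H] (β : MulAut H) (a : ℕ),
  {y | β y = y⁻¹ ∧ y ^ 2 ^ a = 1}.ncard ≤ {y | β y = y}.ncard ^ a

def FIBb : Prop := ∀ (Γ : Type u) [Group Γ] [Finite Γ] (T A : Subgroup Γ) (t : Γ), t * t = 1 →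
  (∀ g ∈ T, t * g * t⁻¹ ∈ T) → (∀ a ∈ A, t * a * t⁻¹ ∈ A) → Ab A →
  {g | g ∈ T ∧ g⁻¹ * (t * g * t⁻¹) ∈ A}.ncard * (nm A t).ncard ≤
    Nat.card ↥(T ⊓ centralizer {t}) * Nat.card A

def FIB : Prop := ∀ (Γ : Type u) [Group Γ] [Finite Γ] (T A : Subgroup Γ) (t : Γ) (a : ℕ), t * t = 1 → A ≤ T →
  (∀ g ∈ T, t * g * t⁻¹ ∈ T) → (∀ b ∈ A, t * b * t⁻¹ ∈ A) → (∀ g ∈ T, ∀ b ∈ A, g * b * g⁻¹ ∈ A) → Ab A →
  {y | y ∈ T ∧ t * y * t⁻¹ = y⁻¹ ∧ y ^ 2 ^ a ∈ A}.ncard * (nm A t).ncard ^ a ≤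
    Nat.card A * Nat.card ↥(T ⊓ centralizer {t}) ^ a

def CNTa : Prop := ∀ (Γ : Type u) [Group Γ] [Finite Γ] (G : Subgroup Γ) (t : Γ), Amb G t →
  (cl G t).ncard ^ 2 ≤ (io G t).ncard * (prs G t).ncard

def CNTb : Prop := ∀ (Γ : Type u) [Group Γ] [Finite Γ] (G : Subgroup Γ) (t : Γ) (S : Sylow 2 Γ), Amb G t →
  t ∈ (S : Subgroup Γ) → (prs G t).ncard * Nat.card ↥((S : Subgroup Γ) ⊓ G) ≤
    Nat.card G * (cl G t ∩ (S : Subgroup Γ)).ncard ^ 2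

def CNT : Prop := ∀ (Γ : Type u) [Group Γ] [Finite Γ] (G : Subgroup Γ) (t : Γ) (S : Sylow 2 Γ), Amb G t →
  t ∈ (S : Subgroup Γ) → Nat.card G ≤
    (io G t).ncard * Nat.card ↥(G ⊓ centralizer {t}) ^ 2 * (cl G t ∩ (S : Subgroup Γ)).ncard

def CD : Prop := ∀ (G : Type u) [Group G] [Finite G] (A : Subgroup G), Ab A → (fittingSubgroup G).index ≤ A.index ^ 2

def MAXA : Prop := ∀ (Γ : Type u) [Group Γ] [Finite Γ] (S T : Subgroup Γ), IsPGroup 2 S → T ≤ S →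
  (∀ g ∈ S, ∀ x ∈ T, g * x * g⁻¹ ∈ T) → ∃ A : Subgroup Γ, A ≤ T ∧ (∀ g ∈ S, ∀ a ∈ A, g * a * g⁻¹ ∈ A) ∧ Ab A ∧
    T ⊓ centralizer (A : Set Γ) ≤ A

/-- the saving for one base point -/
def BASE : Prop := ∀ (Γ : Type u) [Group Γ] [Finite Γ] (G S A : Subgroup Γ) (t s : Γ), Amb G t → s ∈ cl G t → s ∈ S →
  IsPGroup 2 S → G ≠ ⊥ → closure (io G t) = G → (∀ g ∈ G, (∀ h ∈ G, g * h = h * g) → g = 1) → A ≤ S ⊓ G →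
  (∀ g ∈ S, ∀ a ∈ A, g * a * g⁻¹ ∈ A) → Ab A → ∀ p l, 2 ^ l ≤ (pw (nm A s) p).ncard →
  Nat.card ↥((S ⊓ G) ⊓ centralizer {s}) * 2 ^ (2 ^ p * l + 1) ≤ 2 ^ ((io G t).ncard - 1) * (nm A s).ncard

def CORE : Prop := ∀ (Γ : Type u) [Group Γ] [Finite Γ] (G : Subgroup Γ) (t : Γ), Amb G t → G ≠ ⊥ →
  closure (io G t) = G → (∀ g ∈ G, (∀ h ∈ G, g * h = h * g) → g = 1) →
  ∃ A : Subgroup Γ, A ≤ G ∧ Ab A ∧ A.relIndex G < (io G t).ncard ! ^ 2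

def RED1 : Prop := ∀ (G : Type u) [Group G] [Finite G] [Nontrivial G] (α : MulAut G), (∀ x, α (α x) = x) →
  closure (CL.Fgs.invOdd α) = ⊤ → center G = ⊥ → (fittingSubgroup G).index < (CL.Fgs.invOdd α).ncard ! ^ 4

def RED2 : Prop := ∀ (G : Type u) [Group G] [Finite G] [Nontrivial G] (α : MulAut G), (∀ x, α (α x) = x) →
  closure (CL.Fgs.invOdd α) = ⊤ → (fittingSubgroup G).index < (CL.Fgs.invOdd α).ncard ! ^ 4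

end CL.IOd
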