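/-
Project IOd (S3929): the action by conjugation on an invariant subset.
-/
import Cfsg.Agent.IOd.Defs

set_option autoImplicit false

open Cfsg Subgroup MulAction
open scoped Nat

namespace CL.IOd

universe u

namespace AMBx

variable {Γ : Type u} [Group Γ] {Q : Subgroup Γ} {Ω : Set Γ}

/-- conjugation on an invariant subset -/
@[reducible] def act (h : ∀ g ∈ Q, ∀ ω ∈ Ω, g * ω * g⁻¹ ∈ Ω) : MulAction Q Ω where
  smul g w := ⟨g * w * (g : Γ)⁻¹, h g g.2 w w.2⟩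
  one_smul w := Subtype.ext (show ((1 : Q) : Γ) * w * ((1 : Q) : Γ)⁻¹ = w by simp)
  mul_smul a b w := Subtype.ext (show ((a * b : Q) : Γ) * w * ((a * b : Q) : Γ)⁻¹ =
    a * (b * w * (b : Γ)⁻¹) * (a : Γ)⁻¹ by simp [mul_assoc])

theorem faithful (h : ∀ g ∈ Q, ∀ ω ∈ Ω, g * ω * g⁻¹ ∈ Ω) (hf : ∀ g ∈ Q, (∀ ω ∈ Ω, g * ω * g⁻¹ = ω) → g = 1) :
    letI := act h; FaithfulSMul Q Ω :=
  letI := act h
  ⟨fun {a b} e => Subtype.ext (inv_mul_eq_one.1 (hf _ (Q.mul_mem (Q.inv_mem a.2) b.2) fun ω hω => by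
    have : (a : Γ) * ω * (a : Γ)⁻¹ = b * ω * (b : Γ)⁻¹ := congrArg Subtype.val (e ⟨ω, hω⟩)
    rw [show (a : Γ)⁻¹ * b * ω * ((a : Γ)⁻¹ * b)⁻¹ = (a : Γ)⁻¹ * (b * ω * (b : Γ)⁻¹) * a by group, ← this]
    group))⟩

end AMBx

theorem perma (h : PERM.{u}) : PERMA.{u} := by
  intro Γ _ _ Q X Ω hne h1 h2 hQ hX hn hA p l hl
  letI := AMBx.act h1
  haveI := AMBx.faithful h1 h2
  haveI := hne.to_subtype
  have e : pw (X : Set Γ) p = Q.subtype '' pw (X.subgroupOf Q : Set Q) p := by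
    ext y
    exact ⟨fun ⟨x, hx, e⟩ => ⟨_, ⟨⟨x, hX hx⟩, hx, rfl⟩, e⟩, fun ⟨_, ⟨x, hx, rfl⟩, e⟩ => ⟨x, hx, e⟩⟩
  rw [e, Set.ncard_image_of_injective _ Q.subtype_injective] at hl
  have := h Q Ω hQ (X.subgroupOf Q) ⟨fun x hx g => hn g g.2 x hx⟩ (fun a ha b hb => Subtype.ext (hA a ha b hb)) p l hl
  rwa [Nat.card_coe_set_eq, Nat.card_congr (subgroupOfEquivOfLe hX).toEquiv] at this

theorem cena (h : CEN.{u}) : CENA.{u} := by
  intro Γ _ _ Q Ω h1 h2 h3 h4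
  letI := AMBx.act h1
  haveI := AMBx.faithful h1 h2
  have := h Q Ω (fun w => ⟨w⁻¹, h3 w w.2⟩) (fun w => Subtype.ext (inv_inv _))
    (fun w e => h4 w w.2 (congrArg Subtype.val e)) fun c w => Subtype.ext
      (show ((c : Γ) * w * (c : Γ)⁻¹)⁻¹ = c * (w : Γ)⁻¹ * (c : Γ)⁻¹ by group)
  rwa [Nat.card_coe_set_eq] at this

end CL.IOd
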