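/-
Project IOd (S3929): a 2-group acting on a normal subgroup of order `2 ^ j`.
-/
import Cfsg.Agent.IOd.Defs
import Cfsg.Agent.Grp.PGroupBasic

set_option autoImplicit false

open Cfsg Subgroup MulAction
open scoped Nat commutatorElement

namespace CL.IOd

universe u

namespace AUTx

theorem step {R : Type u} [Group R] [Finite R] {Y₀ Y : Subgroup R} (hle : Y₀ ≤ Y) (hi : Y₀.relIndex Y = 2)
    (hc : ⁅Y, (⊤ : Subgroup R)⁆ ≤ Y₀) :
    Nat.card (centralizer (Y₀ : Set R)) ≤ Nat.card (centralizer (Y : Set R)) * Nat.card Y₀ := by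
  have hn : ¬ Y ≤ Y₀ := fun h => by
    rw [relIndex_eq_one.2 h] at hi
    exact absurd hi (by decide)
  obtain ⟨y, hy, hy0⟩ := SetLike.not_le_iff_exists.1 hn
  have hD : centralizer (Y : Set R) ≤ centralizer (Y₀ : Set R) := centralizer_le hle
  set C := centralizer (Y₀ : Set R)
  set D := centralizer (Y : Set R)
  let f : C ⧸ D.subgroupOf C → Y₀ := fun q =>
    ⟨⁅y, (q.out : R)⁆, hc (commutator_mem_commutator hy (mem_top _))⟩
  have hf : Function.Injective f := by
    intro q q' e
    have e1 : ⁅y, (q.out : R)⁆ = ⁅y, (q'.out : R)⁆ := congrArg Subtype.val e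
    rw [← q.out_eq, ← q'.out_eq]
    refine QuotientGroup.eq.2 (mem_subgroupOf.2 ?_)
    have h1 : y⁻¹ * ((q.out : R)⁻¹ * q'.out) = (q.out : R)⁻¹ * q'.out * y⁻¹ := by
      rw [commutatorElement_def, commutatorElement_def] at e1
      calc y⁻¹ * ((q.out : R)⁻¹ * q'.out)
          = (q.out : R)⁻¹ * y⁻¹ * (y * q.out * y⁻¹ * (q.out : R)⁻¹) * q'.out := by group
        _ = (q.out : R)⁻¹ * q'.out * y⁻¹ := by rw [e1]; group
    have h2 : (q.out : R)⁻¹ * q'.out ∈ C := mul_mem (inv_mem q.out.2) q'.out.2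
    rw [coe_mul, coe_inv]
    generalize (q.out : R)⁻¹ * q'.out = c at h1 h2
    refine mem_centralizer_iff.2 fun x hx => ?_
    by_cases hx0 : x ∈ Y₀
    · exact mem_centralizer_iff.1 h2 x hx0
    · have h3 : y⁻¹ * x ∈ Y₀ := by
        have h4 := (mul_mem_iff_of_index_two (H := Y₀.subgroupOf Y) hi (a := ⟨y⁻¹, inv_mem hy⟩) (b := ⟨x, hx⟩)).2
          (iff_of_false (fun h => hy0 (inv_mem_iff.1 (mem_subgroupOf.1 h))) fun h => hx0 (mem_subgroupOf.1 h))
        exact mem_subgroupOf.1 h4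
      have h5 := mem_centralizer_iff.1 h2 _ h3
      calc x * c = y * (y⁻¹ * x * c) := by group
        _ = y * (c * y⁻¹) * x := by rw [h5]; group
        _ = c * x := by rw [← h1]; group
  have h1 := Nat.card_le_card_of_injective f hf
  rw [← (D.subgroupOf C).card_mul_index, Nat.card_congr (subgroupOfEquivOfLe hD).toEquiv]
  exact Nat.mul_le_mul_left _ h1

end AUTx

theorem aut : AUT.{u} := by
  intro R _ _ hR j
  have : Fact (Nat.Prime 2) := ⟨Nat.prime_two⟩
  induction j with
  | zero =>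
    intro Y _ hY
    rw [pow_zero, card_eq_one] at hY
    have h1 : centralizer (Y : Set R) = ⊤ := by
      rw [hY]
      refine eq_top_iff.2 fun g _ => mem_centralizer_iff.2 fun x hx => ?_
      rw [mem_bot.1 hx, one_mul, mul_one]
    rw [h1, card_top]
    exact Nat.le_mul_of_pos_right _ (by positivity)
  | succ j ih =>
    intro Y _ hY
    obtain ⟨Y₀, hn, hle, h0⟩ := CL.Grp.exists_normal_card_eq_pow_le hR Y (b := j)
      (by rw [hY]; exact Nat.pow_le_pow_right (by decide) (Nat.le_succ j))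
    have hlt : Y₀ < Y := lt_of_le_of_ne hle fun e => by
      rw [e, hY] at h0
      exact absurd (Nat.pow_right_injective le_rfl h0) (Nat.succ_ne_self j)
    obtain ⟨K, -, -, h2, h3, h4, h5⟩ := CL.Grp.exists_normal_card_eq_mul hR hlt
    have hK : K = Y := eq_of_le_of_card_ge h2 (by rw [h3, h0, hY, pow_succ'])
    subst hK
    have h6 := AUTx.step hle h4 h5
    have h7 : (j + 1).choose 2 = j + j.choose 2 := by rw [Nat.choose_succ_succ, Nat.choose_one_right]
    calc Nat.card R ≤ Nat.card (centralizer (Y₀ : Set R)) * 2 ^ j.choose 2 := ih Y₀ hn h0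
      _ ≤ Nat.card (centralizer (K : Set R)) * Nat.card Y₀ * 2 ^ j.choose 2 := Nat.mul_le_mul_right _ h6
      _ = Nat.card (centralizer (K : Set R)) * 2 ^ (j + 1).choose 2 := by rw [h0, h7, pow_add, mul_assoc]

end CL.IOd
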