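/-
Project IOd (S3929): the saving for one base point.
-/
import Cfsg.Agent.IOd.Defs

set_option autoImplicit false

open Cfsg Subgroup MulAction
open scoped Nat

namespace CL.IOd

universe u

namespace BASEx

variable {Γ : Type*} [Group Γ]

theorem conj_io {G : Subgroup Γ} [hG : G.Normal] {t x : Γ} (c : Γ) (h : x ∈ io G t) :
    c * x * c⁻¹ ∈ io G (c * t * c⁻¹) :=
  ⟨hG.conj_mem _ h.1 c, by rw [← MulAut.conj_apply, MulEquiv.orderOf_eq]; exact h.2.1, by
    calc _ = c * (t * x * t⁻¹) * c⁻¹ := by group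
      _ = _ := by rw [h.2.2]; group⟩

theorem io_eq (G : Subgroup Γ) [G.Normal] (t c : Γ) : io G (c * t * c⁻¹) = MulAut.conj c '' io G t := by
  ext x
  refine ⟨fun h => ⟨c⁻¹ * x * c, ?_, by simp [mul_assoc]⟩, by rintro ⟨y, hy, rfl⟩; exact conj_io c hy⟩
  simpa [mul_assoc] using conj_io c⁻¹ h

theorem one_io (G : Subgroup Γ) (t : Γ) : 1 ∈ io G t := ⟨one_mem _, by simp, by simp⟩

/-- the subgroup of norms -/
def nmS (A : Subgroup Γ) (s : Γ) (h : ∀ a ∈ A, s * a * s⁻¹ ∈ A) (hA : Ab A) : Subgroup Γ where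
  carrier := nm A s
  one_mem' := ⟨1, one_mem _, by simp⟩
  mul_mem' := by
    rintro _ _ ⟨a, ha, rfl⟩ ⟨b, hb, rfl⟩
    refine ⟨a * b, mul_mem ha hb, ?_⟩
    calc _ = a * (b * (s * a * s⁻¹)) * (s * b * s⁻¹) := by group
      _ = _ := by rw [hA _ hb _ (h a ha)]; group
  inv_mem' := by
    rintro _ ⟨a, ha, rfl⟩
    refine ⟨a⁻¹, inv_mem ha, ?_⟩
    calc _ = (s * a * s⁻¹ * a)⁻¹ := by group
      _ = _ := by rw [hA _ (h a ha) _ ha]

end BASEx

open BASEx in
theorem base (h : PERMA.{u}) : BASE.{u} := by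
  intro Γ _ _ G S A t s am hs sS hS hG hc hz hA nA ab p l hl
  obtain ⟨g, hg, rfl⟩ := hs
  have := normal_of_index_eq_two am.idx
  set s := g * t * g⁻¹ with es
  have s2 : s * s = 1 := by rw [es, show g * t * g⁻¹ * (g * t * g⁻¹) = g * (t * t) * g⁻¹ by group, am.t2]; simp
  have XA : nmS A s (nA s sS) ab ≤ A := by
    rintro _ ⟨a, ha, rfl⟩; exact mul_mem ha (nA s sS a ha)
  have e1 : (io G s \ {1}).ncard = (io G t).ncard - 1 := by
    rw [Set.ncard_sdiff_singleton_of_mem (one_io G s), es, io_eq,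
      Set.ncard_image_of_injective _ (MulAut.conj g).injective]
  have key : ∀ K : Subgroup Γ, (∀ ω ∈ io G s \ {1}, ω ∈ K) → ∀ x ∈ G, x ∈ K := fun K hK x hx => by
    have : G ≤ K.comap (MulAut.conj g).toMonoidHom := by
      refine hc.ge.trans ((closure_le _).2 fun y hy => ?_)
      by_cases e : g * y * g⁻¹ = 1
      · exact show g * y * g⁻¹ ∈ K from e ▸ one_mem K
      · exact hK _ ⟨conj_io g hy, e⟩
    simpa [mul_assoc] using this (mul_mem (mul_mem (inv_mem hg) hx) hg)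
  rw [← e1]
  refine h Γ ((S ⊓ G) ⊓ centralizer {s}) (nmS A s (nA s sS) ab) (io G s \ {1}) ?_ (fun q hq ω hω => ⟨?_, fun e => hω.2 ?_⟩)
    (fun q hq hf => hz q hq.1.2 fun x hx => ?_) (hS.to_le (inf_le_left.trans inf_le_left))
    (fun x hx => ⟨hA (XA hx), ?_⟩) ?_ (fun a ha b hb => ab a (XA ha) b (XA hb)) p l hl
  · by_contra ne
    exact hG (eq_bot_iff.2 (key ⊥ fun ω hω => (ne ⟨ω, hω⟩).elim))
  · have := conj_io q hω.1
    rwa [mem_centralizer_singleton_iff.1 hq.2, mul_inv_cancel_right] at this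
  · simpa using e
  · exact (mem_centralizer_singleton_iff.1 (key (centralizer {q}) (fun ω hω =>
      mem_centralizer_singleton_iff.2 (mul_inv_eq_iff_eq_mul.1 (hf ω hω)).symm) x hx)).symm
  · obtain ⟨a, ha, rfl⟩ := hx
    refine mem_centralizer_singleton_iff.2 ?_
    calc a * (s * a * s⁻¹) * s = (s * s) * a * (s * s)⁻¹ * s * a := by rw [s2]; group
      _ = s * (s * a * s⁻¹ * a) := by group
      _ = _ := by rw [← ab _ ha _ (nA s sS a ha)]
  · rintro q hq _ ⟨a, ha, rfl⟩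
    refine ⟨q * a * q⁻¹, nA q hq.1.1 a ha, ?_⟩
    have e := mem_centralizer_singleton_iff.1 hq.2
    calc q * a * q⁻¹ * (s * (q * a * q⁻¹) * s⁻¹) = q * a * q⁻¹ * (s * q) * a * (s * q)⁻¹ := by group
      _ = _ := by rw [← e]; group

end CL.IOd
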