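/-
Project IOd (S3929): permutation groups commuting with a fixed-point-free involution.
-/
import Cfsg.Agent.IOd.Defs

set_option autoImplicit false

open Cfsg Subgroup MulAction
open scoped Nat

namespace CL.IOd

universe u

theorem CEN.num (k : ℕ) : (2 ^ k * k !) ^ 2 ≤ (k * 2 + 1)! := by
  induction k with
  | zero => simp
  | succ k ih =>
    rw [show (k + 1) * 2 + 1 = k * 2 + 1 + 1 + 1 by ring, Nat.factorial_succ (k * 2 + 1 + 1),
      Nat.factorial_succ (k * 2 + 1), Nat.factorial_succ k, ← mul_assoc (k * 2 + 1 + 1 + 1),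
      show (2 ^ (k + 1) * ((k + 1) * k !)) ^ 2 = (k * 2 + 1 + 1) * (k * 2 + 1 + 1) * (2 ^ k * k !) ^ 2 by ring]
    exact Nat.mul_le_mul (Nat.mul_le_mul_right _ (Nat.le_succ _)) ih

theorem cen : CEN.{u} := by
  intro C _ _ Ω _ _ _ ι h1 h2 h3
  classical
  have := Fintype.ofFinite Ω
  let g : Equiv.Perm Ω := Function.Involutive.toPerm ι h1
  have hc : Nat.card C ≤ Nat.card (centralizer {g}) := Nat.card_le_card_of_injective
    (fun c => ⟨toPermHom C Ω c, mem_centralizer_singleton_iff.2 (Equiv.ext fun x => (h3 c x).symm)⟩)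
    fun _ _ e => toPerm_injective (congrArg Subtype.val e)
  have hs : g.cycleType.sum = Fintype.card Ω := by
    rw [Equiv.Perm.sum_cycleType, Finset.eq_univ_iff_forall.2 fun x => Equiv.Perm.mem_support.2 (h2 x),
      Finset.card_univ]
  have ht := Equiv.Perm.cycleType_of_pow_prime_eq_one (σ := g) (p := 2) (Equiv.ext h1)
  generalize g.cycleType.card = k at ht
  rw [Equiv.Perm.nat_card_centralizer, hs, Nat.sub_self, ht] at hc
  rw [Nat.card_eq_fintype_card (α := Ω), ← hs, ht, Multiset.sum_replicate, smul_eq_mul]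
  refine (Nat.pow_le_pow_left (hc.trans (le_of_eq ?_)) 2).trans (CEN.num k)
  rcases eq_or_ne k 0 with rfl | hk
  · simp
  · simp [Multiset.toFinset_replicate, hk]

end CL.IOd
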