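/-
Project IOd: the counting inequality.
-/
import Cfsg.Agent.IOd.Defs

set_option autoImplicit false

open Cfsg Subgroup MulAction
open scoped Nat

namespace CL.IOd

universe u

namespace CNTx

variable {Γ : Type u} [Group Γ] [Finite Γ]

theorem card_le (G : Subgroup Γ) (t : Γ) : Nat.card G ≤ (cl G t).ncard * Nat.card ↥(G ⊓ centralizer {t}) := by
  have h : ∀ s : cl G t, ∃ g ∈ G, (s : Γ) = g * t * g⁻¹ := fun s => s.2
  choose r r1 r2 using h
  rw [← Nat.card_coe_set_eq, ← Nat.card_prod]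
  refine Nat.card_le_card_of_injective (fun g : G => ((⟨g * t * (g : Γ)⁻¹, g, g.2, rfl⟩ : cl G t),
    (⟨(r ⟨g * t * (g : Γ)⁻¹, g, g.2, rfl⟩)⁻¹ * g, mem_inf.2 ⟨mul_mem (inv_mem (r1 _)) g.2,
      mem_centralizer_singleton_iff.2 (by
        have := r2 ⟨g * t * (g : Γ)⁻¹, g, g.2, rfl⟩
        generalize r ⟨g * t * (g : Γ)⁻¹, g, g.2, rfl⟩ = x at this
        calc x⁻¹ * g * t = x⁻¹ * (g * t * (g : Γ)⁻¹) * g := by group
          _ = t * (x⁻¹ * g) := by rw [show (g : Γ) * t * (g : Γ)⁻¹ = x * t * x⁻¹ from this]; group)⟩⟩ :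
      ↥(G ⊓ centralizer {t})))) fun a b e => ?_
  obtain ⟨e1, e2⟩ := Prod.ext_iff.1 e
  have e3 := congrArg Subtype.val e2
  simp only at e1 e3
  rw [e1] at e3
  exact Subtype.ext (mul_left_cancel e3)

theorem cl_le {G S : Subgroup Γ} {t : Γ} (h : Amb G t) (ht : t ∈ S) : (cl G t ∩ S).ncard ≤ Nat.card ↥(S ⊓ G) := by
  rw [← Nat.card_coe_set_eq]
  refine Nat.card_le_card_of_injective (fun s => ⟨t * s, mem_inf.2 ⟨mul_mem ht s.2.2, ?_⟩⟩) fun a b e =>
    Subtype.ext (mul_left_cancel (congrArg Subtype.val e))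
  obtain ⟨g, hg, e⟩ := s.2.1
  rw [mul_mem_iff_of_index_two h.idx, e, mul_mem_cancel_right (inv_mem hg), mul_mem_cancel_left hg]

end CNTx

theorem cnt (h1 : CNTa.{u}) (h2 : CNTb.{u}) : CNT.{u} := by
  intro Γ _ _ G t S h ht
  have a := h1 Γ G t h
  have b := h2 Γ G t S h ht
  have c := CNTx.card_le G t
  have d := CNTx.cl_le h ht
  have p1 : 0 < Nat.card G := Nat.card_pos
  have p2 : 0 < Nat.card ↥((S : Subgroup Γ) ⊓ G) := Nat.card_pos
  generalize Nat.card G = g, Nat.card ↥((S : Subgroup Γ) ⊓ G) = T, (cl G t ∩ (S : Subgroup Γ)).ncard = N,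
    (cl G t).ncard = k, (io G t).ncard = m, (prs G t).ncard = P, Nat.card ↥(G ⊓ centralizer {t}) = z at *
  refine Nat.le_of_mul_le_mul_right ?_ (Nat.mul_pos p1 p2)
  calc g * (g * T) = g ^ 2 * T := by ring
    _ ≤ (k * z) ^ 2 * T := by gcongr
    _ = k ^ 2 * (z ^ 2 * T) := by ring
    _ ≤ m * P * (z ^ 2 * T) := by gcongr
    _ = m * z ^ 2 * (P * T) := by ring
    _ ≤ m * z ^ 2 * (g * N ^ 2) := by gcongr
    _ = m * z ^ 2 * N * (g * N) := by ring
    _ ≤ m * z ^ 2 * N * (g * T) := by gcongr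

end CL.IOd
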