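/-
Project IOd (S3929), job CNTa: pairs of conjugates of `t` against pairs with a product of `2`-power order.
-/
import Cfsg.Agent.IOd.Defs

set_option autoImplicit false

open Cfsg Subgroup MulAction
open scoped Nat

namespace CL.IOd

universe u

namespace CNTa

theorem split {Γ : Type u} [Group Γ] [Finite Γ] (z : Γ) :
    ∃ (i : ℤ) (k : ℕ), Odd (orderOf (z ^ i)) ∧ (z * (z ^ i)⁻¹ * (z ^ i)⁻¹) ^ 2 ^ k = 1 := by
  obtain ⟨k, m, hm, e⟩ := Nat.exists_eq_two_pow_mul_odd (orderOf_pos z).ne'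
  obtain ⟨c, d, h⟩ : IsCoprime ((2 : ℤ) ^ (k + 1)) m :=
    (Int.isCoprime_iff_gcd_eq_one.2 (by exact_mod_cast (Nat.coprime_two_left.2 hm))).pow_left
  have h1 : z ^ ((2 : ℤ) ^ k * m) = 1 := by
    have := pow_orderOf_eq_one z
    rw [e] at this
    exact_mod_cast this
  refine ⟨2 ^ k * c, k, hm.of_dvd_nat (orderOf_dvd_of_pow_eq_one ?_), ?_⟩
  · rw [← zpow_natCast, ← zpow_mul, mul_right_comm, zpow_mul, h1, one_zpow]
  · have : z * (z ^ (2 ^ k * c))⁻¹ * (z ^ (2 ^ k * c))⁻¹ = z ^ (d * m) := by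
      rw [show d * m = 1 - 2 ^ k * c - 2 ^ k * c by linear_combination h, zpow_sub, zpow_sub, zpow_one]
    rw [this, ← zpow_natCast, ← zpow_mul, show d * m * ((2 ^ k : ℕ) : ℤ) = 2 ^ k * m * d by push_cast; ring, zpow_mul,
      h1, one_zpow]

end CNTa

theorem cnta : CNTa.{u} := by
  intro Γ _ _ G t h
  have hN : G.Normal := normal_of_index_eq_two h.idx
  have ti : t⁻¹ = t := inv_eq_of_mul_eq_one_right h.t2
  have sq : ∀ a ∈ cl G t, a * a = 1 := by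
    rintro _ ⟨g, -, rfl⟩
    rw [conj_mul, h.t2, mul_one, mul_inv_cancel]
  choose! γ hγ eγ using fun a (ha : a ∈ cl G t) => ha
  let Φ : Γ × Γ × Γ → Γ × Γ := fun p =>
    (p.2.1, (γ p.2.1 * p.1 * (γ p.2.1)⁻¹)⁻¹ * p.2.2 * (γ p.2.1 * p.1 * (γ p.2.1)⁻¹))
  rw [pow_two, ← Set.ncard_prod, ← Set.ncard_prod]
  refine (Set.ncard_le_ncard (t := Φ '' (io G t ×ˢ prs G t)) ?_).trans Set.ncard_image_le
  rintro ⟨a, b⟩ ⟨ha, hb⟩
  dsimp only at ha hb
  obtain ⟨i, k, h1, h2⟩ := CNTa.split (a * b)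
  have zG : a * b ∈ G := by
    rw [eγ a ha, eγ b hb, show γ a * t * (γ a)⁻¹ * (γ b * t * (γ b)⁻¹) =
      γ a * (t * ((γ a)⁻¹ * γ b) * t⁻¹) * (γ b)⁻¹ by rw [ti]; group]
    exact mul_mem (mul_mem (hγ a ha) (hN.conj_mem _ (mul_mem (inv_mem (hγ a ha)) (hγ b hb)) t)) (inv_mem (hγ b hb))
  have inv : a * (a * b) ^ i * a⁻¹ = ((a * b) ^ i)⁻¹ := by
    rw [← conj_zpow, ← mul_assoc, sq a ha, one_mul, ← inv_zpow, mul_inv_rev, inv_eq_of_mul_eq_one_right (sq b hb)]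
  have cm : Commute (a * b) ((a * b) ^ i)⁻¹ := (Commute.self_zpow _ i).inv_right
  have xG := zpow_mem zG i
  generalize (a * b) ^ i = x at h1 h2 inv cm xG
  refine ⟨((γ a)⁻¹ * x * γ a, a, x * b * x⁻¹), ⟨⟨hN.conj_mem' _ xG _, ?_, ?_⟩, ha,
    ⟨x * γ b, mul_mem xG (hγ b hb), by conv_lhs => rw [eγ b hb]
                                       group⟩, k, ?_⟩, Prod.ext rfl (by dsimp only [Φ]; group)⟩
  · rwa [← (SemiconjBy.orderOf_eq (γ a) (x := (γ a)⁻¹ * x * γ a) (y := x) (by rw [SemiconjBy]; group))] at h1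
  · dsimp only
    calc _ = (γ a)⁻¹ * (γ a * t * (γ a)⁻¹ * x * (γ a * t * (γ a)⁻¹)⁻¹) * γ a := by group
      _ = _ := by rw [← eγ a ha, inv]; group
  · dsimp only
    rw [← h2, cm.eq, show a * (x * b * x⁻¹) = a * x * a⁻¹ * (a * b) * x⁻¹ by group, inv]

end CL.IOd
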