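/-
Project IOd (S3929): the pairs with a `2`-element as product are conjugate into a Sylow subgroup.
-/
import Cfsg.Agent.IOd.Defs

set_option autoImplicit false

open Cfsg Subgroup MulAction
open scoped Nat

namespace CL.IOd

universe u

namespace CNTbx

variable {Γ : Type*} [Group Γ] {G : Subgroup Γ} {t : Γ}

theorem cl_conj {a g : Γ} (ha : a ∈ cl G t) (hg : g ∈ G) : g * a * g⁻¹ ∈ cl G t := by
  obtain ⟨k, hk, rfl⟩ := ha
  exact ⟨g * k, mul_mem hg hk, by group⟩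

theorem cl_sq (h : Amb G t) {a : Γ} (ha : a ∈ cl G t) : a * a = 1 := by
  obtain ⟨k, -, rfl⟩ := ha
  rw [conj_mul, h.t2, mul_one, mul_inv_cancel]

theorem pz {z : Γ} {k : ℕ} (h : z ^ 2 ^ k = 1) : IsPGroup 2 (zpowers z) := by
  rintro ⟨_, n, rfl⟩
  exact ⟨k, Subtype.ext (by rw [coe_pow, ← zpow_natCast, ← zpow_mul, mul_comm, zpow_mul, zpow_natCast, h, one_zpow]; rfl)⟩

theorem ex [Finite Γ] (S : Sylow 2 Γ) (h : Amb G t) (ht : t ∈ (S : Subgroup Γ)) {x : Γ × Γ} (hx : x ∈ prs G t) :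
    ∃ g ∈ G, g * x.1 * g⁻¹ ∈ (S : Subgroup Γ) ∧ g * x.2 * g⁻¹ ∈ (S : Subgroup Γ) := by
  obtain ⟨a, b⟩ := x
  obtain ⟨ha, hb, k, hk⟩ := hx
  have a2 : a * a = 1 := cl_sq h ha
  have b2 : b * b = 1 := cl_sq h hb
  have e : a * (a * b) * a⁻¹ = (a * b)⁻¹ := by
    rw [← mul_assoc, a2, one_mul, mul_inv_rev, inv_eq_of_mul_eq_one_right b2]
  obtain ⟨Q, hQ⟩ := ((pz hk).to_sup_of_normal_left' (pz (z := a) (k := 1) (by rw [pow_one, sq, a2]))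
    (zpowers_le_of_mem (mem_normalizer_fintype (by
      rintro _ ⟨n, rfl⟩
      exact ⟨-n, by rw [← conj_zpow, e, inv_zpow']⟩)))).exists_le_sylow
  have m1 : a ∈ (Q : Subgroup Γ) := hQ (mem_sup_right (mem_zpowers a))
  have m2 : b ∈ (Q : Subgroup Γ) := (mul_mem_cancel_left m1).1 (hQ (mem_sup_left (mem_zpowers _)))
  obtain ⟨g, rfl⟩ := exists_smul_eq Γ Q S
  have c : ∀ {y}, y ∈ (Q : Subgroup Γ) → g * y * g⁻¹ ∈ ((g • Q : Sylow 2 Γ) : Subgroup Γ) := fun hy => ⟨_, hy, rfl⟩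
  by_cases hg : g ∈ G
  · exact ⟨g, hg, c m1, c m2⟩
  · refine ⟨t * g, (mul_mem_iff_of_index_two h.idx).2 (iff_of_false h.tG hg), ?_, ?_⟩
    · simpa [mul_assoc] using mul_mem (mul_mem ht (c m1)) (inv_mem ht)
    · simpa [mul_assoc] using mul_mem (mul_mem ht (c m2)) (inv_mem ht)

end CNTbx

open CNTbx in
theorem cntb : CNTb.{u} := by
  intro Γ _ _ G t S h ht
  choose g hg h1 h2 using fun x : prs G t => ex S h ht x.2
  have m : ∀ (x : prs G t) (τ : ↥((S : Subgroup Γ) ⊓ G)) {a}, a ∈ cl G t → g x * a * (g x)⁻¹ ∈ (S : Subgroup Γ) →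
      τ * g x * a * (τ * g x)⁻¹ ∈ cl G t ∩ (S : Subgroup Γ) := fun x τ a ha k =>
    ⟨cl_conj ha (mul_mem τ.2.2 (hg x)), by
      rw [show τ * g x * a * (τ * g x)⁻¹ = τ * (g x * a * (g x)⁻¹) * (τ : Γ)⁻¹ by group]
      exact (S : Subgroup Γ).mul_mem (mul_mem τ.2.1 k) ((S : Subgroup Γ).inv_mem τ.2.1)⟩
  have := Nat.card_le_card_of_injective (fun y : prs G t × ↥((S : Subgroup Γ) ⊓ G) =>
    ((⟨y.2 * g y.1, mul_mem y.2.2.2 (hg y.1)⟩, ⟨_, m y.1 y.2 y.1.2.1 (h1 y.1)⟩, ⟨_, m y.1 y.2 y.1.2.2.1 (h2 y.1)⟩) :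
      G × ↥(cl G t ∩ (S : Subgroup Γ)) × ↥(cl G t ∩ (S : Subgroup Γ)))) (by
    rintro ⟨x, τ⟩ ⟨y, σ⟩ e
    simp only [Prod.mk.injEq, Subtype.mk.injEq] at e
    obtain ⟨e0, e1, e2⟩ := e
    rw [e0, mul_left_inj, mul_right_inj] at e1 e2
    obtain rfl : x = y := Subtype.ext (Prod.ext e1 e2)
    rw [Subtype.ext (mul_right_cancel e0)])
  rwa [Nat.card_prod, Nat.card_prod, Nat.card_prod, Nat.card_coe_set_eq, Nat.card_coe_set_eq, ← sq] at this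

end CL.IOd
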