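/-
Project IOd (S3929), job FIB (helper74).
-/
import Cfsg.Agent.IOd.Defs

set_option autoImplicit false

open Cfsg Subgroup MulAction
open scoped Nat

namespace CL.IOd

universe u

namespace FIBx

theorem pre {H : Type*} [Group H] (N : Subgroup H) (Z : Set (H ⧸ N)) :
    ((QuotientGroup.mk : H → H ⧸ N) ⁻¹' Z).ncard = Nat.card N * Z.ncard := by
  rw [← Nat.card_coe_set_eq, ← Nat.card_coe_set_eq]
  exact QuotientGroup.card_preimage_mk N Z

/-- conjugation by an involution that normalises `T` -/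
def cj {Γ : Type*} [Group Γ] (T : Subgroup Γ) (t : Γ) (t2 : t * t = 1) (hT : ∀ g ∈ T, t * g * t⁻¹ ∈ T) :
    MulAut T where
  toFun g := ⟨t * g * t⁻¹, hT g g.2⟩
  invFun g := ⟨t * g * t⁻¹, hT g g.2⟩
  left_inv g := Subtype.ext (by
    change t * (t * (g : Γ) * t⁻¹) * t⁻¹ = g
    rw [← mul_assoc, ← mul_assoc, t2, one_mul, mul_assoc, ← mul_inv_rev, t2, inv_one, mul_one])
  right_inv g := Subtype.ext (by
    change t * (t * (g : Γ) * t⁻¹) * t⁻¹ = g
    rw [← mul_assoc, ← mul_assoc, t2, one_mul, mul_assoc, ← mul_inv_rev, t2, inv_one, mul_one])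
  map_mul' g h := Subtype.ext (by
    change t * ((g : Γ) * h) * t⁻¹ = t * g * t⁻¹ * (t * h * t⁻¹)
    group)

end FIBx

theorem fib (h1 : FIBa.{u}) (h2 : FIBb.{u}) : FIB.{u} := by
  intro Γ _ _ T A t a t2 hAT hT hA hn hab
  haveI hN : (A.subgroupOf T).Normal := ⟨fun b hb g => hn g g.2 b hb⟩
  obtain ⟨β, -, hβ⟩ := CL.Fgs.exists_quot_aut (FIBx.cj T t t2 hT) (FIBx.cj T t t2 hT).left_inv (A.subgroupOf T)
    fun x hx => hA x hx
  have cA : Nat.card (A.subgroupOf T) = Nat.card A := Nat.card_congr (subgroupOfEquivOfLe hAT).toEquiv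
  have k1 := h1 (T ⧸ A.subgroupOf T) β a
  have k2 := h2 Γ T A t t2 hT hA hab
  set c := {y | β y = y}.ncard with hc
  have e1 : {y | y ∈ T ∧ t * y * t⁻¹ = y⁻¹ ∧ y ^ 2 ^ a ∈ A}.ncard ≤ Nat.card A * c ^ a := by
    refine le_trans ?_ (Nat.mul_le_mul_left _ k1)
    rw [← cA, ← FIBx.pre, ← Set.ncard_image_of_injective _ T.subtype_injective]
    refine Set.ncard_le_ncard ?_ (Set.toFinite _)
    rintro y ⟨hy, hi, hp⟩
    refine ⟨⟨y, hy⟩, ⟨?_, ?_⟩, rfl⟩
    · refine (hβ ⟨y, hy⟩).trans ?_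
      have : FIBx.cj T t t2 hT ⟨y, hy⟩ = (⟨y, hy⟩ : T)⁻¹ := Subtype.ext hi
      rw [this, map_inv]; rfl
    · rw [← QuotientGroup.mk_pow, QuotientGroup.eq_one_iff]
      exact hp
  have e2 : Nat.card A * c ≤ {g | g ∈ T ∧ g⁻¹ * (t * g * t⁻¹) ∈ A}.ncard := by
    rw [← cA, hc, ← FIBx.pre, ← Set.ncard_image_of_injective _ T.subtype_injective]
    refine Set.ncard_le_ncard ?_ (Set.toFinite _)
    rintro _ ⟨g, hg, rfl⟩
    have hg' : (QuotientGroup.mk g : T ⧸ A.subgroupOf T) = QuotientGroup.mk (FIBx.cj T t t2 hT g) :=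
      (Eq.symm hg).trans (hβ g)
    have hg'' : g⁻¹ * FIBx.cj T t t2 hT g ∈ A.subgroupOf T := QuotientGroup.eq.1 hg'
    exact ⟨g.2, hg''⟩
  have e3 : c * (nm A t).ncard ≤ Nat.card ↥(T ⊓ centralizer {t}) := by
    refine Nat.le_of_mul_le_mul_left ?_ (Nat.card_pos (α := A))
    rw [← mul_assoc, mul_comm (Nat.card A) (Nat.card ↥(T ⊓ centralizer {t}))]
    exact (Nat.mul_le_mul_right _ e2).trans k2
  refine (Nat.mul_le_mul_right _ e1).trans ?_
  rw [mul_assoc, ← mul_pow]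
  exact Nat.mul_le_mul_left _ (Nat.pow_le_pow_left e3 a)

end CL.IOd
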