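/-
Project IOd (S3929): the steps `FIBa` and `FIBb`.
-/
import Cfsg.Agent.IOd.Defs

set_option autoImplicit false

open Cfsg Subgroup MulAction
open scoped Nat

namespace CL.IOd

universe u

namespace FIBax

theorem fib {H : Type u} [Group H] [Finite H] (W J F : Set H) (f : H → H) (hf : ∀ x ∈ W, f x ∈ J)
    (hd : ∀ x ∈ W, ∀ y ∈ W, f x = f y → x * y⁻¹ ∈ F) : W.ncard ≤ F.ncard * J.ncard := by
  rw [← Set.ncard_prod]
  refine Set.ncard_le_ncard_of_injOn (fun x => (x * (Function.invFunOn f W (f x))⁻¹, f x)) (fun x hx => ?_)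
    fun x _ y _ e => ?_
  · exact ⟨hd x hx _ (Function.invFunOn_mem ⟨x, hx, rfl⟩) (Function.invFunOn_eq (f := f) ⟨x, hx, rfl⟩).symm, hf x hx⟩
  · have e1 : x * (Function.invFunOn f W (f x))⁻¹ = y * (Function.invFunOn f W (f y))⁻¹ := congrArg Prod.fst e
    have e2 : f x = f y := congrArg Prod.snd e
    rw [e2] at e1
    exact mul_right_cancel e1

end FIBax

open FIBax

theorem fiba : FIBa.{u} := by
  intro H _ _ β a
  induction a with
  | zero =>
    rw [pow_zero {y | β y = y}.ncard, ← Set.ncard_singleton (1 : H)]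
    exact Set.ncard_le_ncard fun y hy => by simpa using hy.2
  | succ a ih =>
    rw [pow_succ' {y | β y = y}.ncard]
    refine (fib _ {y | β y = y⁻¹ ∧ y ^ 2 ^ a = 1} {y | β y = y} (fun y => y * y) (fun y hy => ⟨?_, ?_⟩)
      fun x hx y hy e => ?_).trans (Nat.mul_le_mul_left _ ih)
    · rw [map_mul, hy.1, mul_inv_rev]
    · rw [← pow_two, ← pow_mul, ← pow_succ']; exact hy.2
    · have e' : x * x = y * y := e
      show β (x * y⁻¹) = x * y⁻¹
      rw [map_mul, map_inv, hx.1, hy.1, inv_inv]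
      calc x⁻¹ * y = x⁻¹ * (y * y) * y⁻¹ := by group
        _ = x * y⁻¹ := by rw [← e']; group

theorem fibb : FIBb.{u} := by
  intro Γ _ _ T A t t2 _ hA ab
  let N : A →* Γ := MonoidHom.mk' (fun b => b * (t * b * t⁻¹)) fun a b => by
    have := ab _ b.2 _ (hA _ a.2)
    calc ((a * b : A) : Γ) * (t * (a * b : A) * t⁻¹) = a * (b * (t * a * t⁻¹)) * (t * b * t⁻¹) := by
          rw [coe_mul]; group
      _ = _ := by rw [this]; group
  have h1 : nm A t = (N.range : Set Γ) := Set.ext fun x =>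
    ⟨fun ⟨b, hb, e⟩ => ⟨⟨b, hb⟩, e⟩, fun ⟨b, e⟩ => ⟨b, b.2, e⟩⟩
  have h2 : Nat.card N.ker * Nat.card N.range = Nat.card A := by rw [← index_ker, card_mul_index]
  have h3 := fib {g | g ∈ T ∧ g⁻¹ * (t * g * t⁻¹) ∈ A} (N.ker.map A.subtype : Subgroup Γ)
    (T ⊓ centralizer {t} : Subgroup Γ) (fun g => g⁻¹ * (t * g * t⁻¹)) (fun g hg => ⟨⟨_, hg.2⟩, ?_, rfl⟩)
    fun x hx y hy e => ⟨T.mul_mem hx.1 (T.inv_mem hy.1), mem_centralizer_singleton_iff.2 ?_⟩
  · rw [← Nat.card_coe_set_eq ((T ⊓ centralizer {t} : Subgroup Γ) : Set Γ),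
      ← Nat.card_coe_set_eq ((N.ker.map A.subtype : Subgroup Γ) : Set Γ)] at h3
    have h4 : Nat.card (N.ker.map A.subtype) = Nat.card N.ker := card_map_of_injective (subtype_injective _)
    rw [h1, ← Nat.card_coe_set_eq (N.range : Set Γ), ← h2, ← mul_assoc, ← h4]
    exact Nat.mul_le_mul_right _ h3
  · show g⁻¹ * (t * g * t⁻¹) * (t * (g⁻¹ * (t * g * t⁻¹)) * t⁻¹) = 1
    have ti : t⁻¹ = t := inv_eq_of_mul_eq_one_right t2
    calc _ = g⁻¹ * (t * t) * g * (t⁻¹ * t⁻¹) := by group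
      _ = 1 := by rw [ti, t2]; group
  · have e' : x⁻¹ * (t * x * t⁻¹) = y⁻¹ * (t * y * t⁻¹) := e
    calc x * y⁻¹ * t = x * (y⁻¹ * (t * y * t⁻¹)) * (t * y⁻¹) := by group
      _ = t * (x * y⁻¹) := by rw [← e']; group

end CL.IOd
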