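/-
Project IOd (S3929): the step KER.
-/
import Cfsg.Agent.IOd.Defs

set_option autoImplicit false

open Cfsg Subgroup MulAction
open scoped Nat

namespace CL.IOd

universe u

theorem KERx.bound {Q Ω : Type*} [Group Q] [Finite Q] [Finite Ω] [MulAction Q Ω] [FaithfulSMul Q Ω] (X : Subgroup Q)
    [Fintype (orbitRel.Quotient X Ω)] (Z : Set Q) (b : orbitRel.Quotient X Ω → ℕ)
    (hb : ∀ i : orbitRel.Quotient X Ω, (res X i.out '' Z).ncard ≤ 2 ^ b i) : Z.ncard ≤ 2 ^ ∑ i, b i := by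
  have := Nat.card_le_card_of_injective
    (fun (z : Z) (i : orbitRel.Quotient X Ω) => (⟨res X i.out z, z, z.2, rfl⟩ : res X i.out '' Z)) fun z z' e =>
      Subtype.ext (eq_of_smul_eq_smul fun ω : Ω => congrFun (congrArg Subtype.val (congrFun e (Quotient.mk'' ω)))
        ⟨ω, (orbitRel X Ω).symm (Quotient.mk_out' ω)⟩)
  rw [Nat.card_pi, Nat.card_coe_set_eq] at this
  rw [← Finset.prod_pow_eq_pow_sum]
  exact this.trans (Finset.prod_le_prod' fun i _ => (Nat.card_coe_set_eq _).trans_le (hb i))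

theorem ker' (h : ORB.{u}) : KER.{u} := by
  intro Q _ _ Ω _ _ _ hQ K X _ nX aX le hK
  choose j j1 j2 j3 using fun i : orbitRel.Quotient X Ω => h Q Ω hQ K X nX aX le hK i.out
  refine ⟨j, ?_, (Nat.card_coe_set_eq (K : Set Q)).trans_le (KERx.bound X _ _ j2), fun q => KERx.bound X _ _ fun i => j3 i q⟩
  rw [Nat.card_congr (selfEquivSigmaOrbits X Ω), Nat.card_sigma]
  exact Finset.sum_congr rfl fun i _ => ((Nat.card_coe_set_eq _).trans (j1 i)).symm

end CL.IOd
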