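/-
Project IOd (S3929): the module statement `MODa` transported to an abelian subgroup normalised by a `2`-group.
-/
import Cfsg.Agent.IOd.Defs

set_option autoImplicit false

open Cfsg Subgroup MulAction
open scoped Nat

namespace CL.IOd

universe u

theorem mod' (h : MODa.{u}) : MOD.{u} := by
  intro Γ _ _ S A t s j hS hAS hn hab ht hs ht2 hnc
  letI : CommGroup A :=
    { (inferInstance : Group A) with mul_comm := fun a b => Subtype.ext (hab a a.2 b b.2) }
  let f : S → A →* A := fun g =>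
    { toFun := fun a => ⟨g * a * (g : Γ)⁻¹, hn g g.2 a a.2⟩
      map_one' := Subtype.ext (by simp)
      map_mul' := fun a b => Subtype.ext (by simp [mul_assoc]) }
  let c : S →* Module.End ℤ (Additive A) :=
    { toFun := fun g => (MonoidHom.toAdditive (f g)).toIntLinearMap
      map_one' := LinearMap.ext fun a => Additive.toMul.injective (Subtype.ext (by
        show ((1 : S) : Γ) * ((Additive.toMul a : A) : Γ) * ((1 : S) : Γ)⁻¹ = ((Additive.toMul a : A) : Γ)
        simp))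
      map_mul' := fun g g' => LinearMap.ext fun a => Additive.toMul.injective (Subtype.ext (by
        show ((g * g' : S) : Γ) * ((Additive.toMul a : A) : Γ) * ((g * g' : S) : Γ)⁻¹ =
          (g : Γ) * ((g' : Γ) * ((Additive.toMul a : A) : Γ) * (g' : Γ)⁻¹) * (g : Γ)⁻¹
        simp [mul_assoc])) }
  have hc : ∀ (g : S) (m : Additive A),
      ((Additive.toMul (c g m) : A) : Γ) = g * ((Additive.toMul m : A) : Γ) * (g : Γ)⁻¹ := fun g m => rfl
  obtain ⟨e, he⟩ := hS (⟨t, ht⟩ * ⟨s, hs⟩)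
  obtain ⟨k, hk⟩ := (IsPGroup.iff_card (p := 2) (G := A)).1 (hS.to_le hAS)
  have hι : Function.Injective fun m : Additive A => ((Additive.toMul m : A) : Γ) :=
    Subtype.val_injective.comp Additive.toMul.injective
  have key : ∀ (g : S) (p : ℕ), pw (nm A (g : Γ)) p =
      (fun m : Additive A => ((Additive.toMul m : A) : Γ)) ''
        Set.range fun m : Additive A => (2 ^ p : ℕ) • (m + c g m) := by
    intro g p
    have hv : ∀ m : Additive A, ((Additive.toMul ((2 ^ p : ℕ) • (m + c g m)) : A) : Γ) =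
        (((Additive.toMul m : A) : Γ) * (g * ((Additive.toMul m : A) : Γ) * (g : Γ)⁻¹)) ^ 2 ^ p := by
      intro m
      rw [toMul_nsmul, toMul_add, ← hc]
      simp only [SubmonoidClass.coe_pow, Subgroup.coe_mul]
    ext x
    constructor
    · rintro ⟨_, ⟨b, hb, rfl⟩, rfl⟩
      exact ⟨_, ⟨Additive.ofMul ⟨b, hb⟩, rfl⟩, hv _⟩
    · rintro ⟨_, ⟨m, rfl⟩, rfl⟩
      exact ⟨_, ⟨_, (Additive.toMul m).2, rfl⟩, (hv m).symm⟩
  have h1 : c ⟨t, ht⟩ * c ⟨t, ht⟩ = 1 := by
    rw [← map_mul, ← map_one c]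
    exact congrArg c (Subtype.ext ht2)
  have h2 : (c ⟨t, ht⟩ * c ⟨s, hs⟩) ^ 2 ^ e = 1 := by
    rw [← map_mul, ← map_pow, he, map_one]
  have h3 : (c ⟨t, ht⟩ * c ⟨s, hs⟩) ^ 2 ^ j ≠ 1 := by
    rw [← map_mul, ← map_pow]
    intro h0
    apply hnc
    rw [mem_centralizer_iff]
    intro a ha
    have := hc ((⟨t, ht⟩ * ⟨s, hs⟩) ^ 2 ^ j) (Additive.ofMul ⟨a, ha⟩)
    rw [h0] at this
    have h' : a = (t * s) ^ 2 ^ j * a * ((t * s) ^ 2 ^ j)⁻¹ := by simpa using this
    rw [eq_mul_inv_iff_mul_eq] at h'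
    exact h'
  obtain ⟨p, l, hp, hl⟩ := h (Additive A) (c ⟨t, ht⟩) (c ⟨s, hs⟩) e k j h1 h2 hk h3
  refine ⟨p, l, hp, ?_⟩
  have kt := key ⟨t, ht⟩ p
  have ks := key ⟨s, hs⟩ p
  rcases hl with hl | hl
  · left
    rw [show pw (nm A t) p = _ from kt, Set.ncard_image_of_injective _ hι]
    exact hl
  · right
    rw [show pw (nm A s) p = _ from ks, Set.ncard_image_of_injective _ hι]
    exact hl

end CL.IOd
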