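/-
Project IOd (S3929): the module lemma.
-/
import Cfsg.Agent.IOd.Defs

set_option autoImplicit false

open Cfsg Subgroup MulAction
open scoped Nat

namespace CL.IOd

universe u

theorem moda (h1 : RING.{u}) (h2 : NIL.{u}) : MODa.{u} := by
  intro M _ _ τ σ e k j _ hu hM hj
  by_contra hn
  apply hj
  apply h1 M j (τ * σ)
  intro p r hpr m
  have hpow : ∀ ρ : Module.End ℤ M, ∃ l, (Set.range fun m : M => (2 ^ p : ℕ) • (m + ρ m)).ncard = 2 ^ l := by
    intro ρ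
    let f : M →+ M := AddMonoidHom.mk' (fun m => (2 ^ p : ℕ) • (m + ρ m)) (by
      intro a b
      rw [map_add, ← nsmul_add]; congr 1; abel)
    have hd : Nat.card f.range ∣ 2 ^ k := hM ▸ AddSubgroup.card_addSubgroup_dvd_card f.range
    obtain ⟨l, -, hl⟩ := (Nat.dvd_prime_pow Nat.prime_two).1 hd
    exact ⟨l, by rw [← hl, ← Nat.card_coe_set_eq]; rfl⟩
  obtain ⟨lt, hlt⟩ := hpow τ
  obtain ⟨ls, hls⟩ := hpow σ
  have hb : ∀ l, 2 ^ r ≤ 2 * l → 2 ^ j ≤ 2 * (2 ^ p * l) := by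
    intro l hl
    rw [← hpr, pow_add]
    calc 2 ^ p * 2 ^ r ≤ 2 ^ p * (2 * l) := Nat.mul_le_mul_left _ hl
      _ = 2 * (2 ^ p * l) := by ring
  have bt : 2 * lt < 2 ^ r := by
    by_contra h
    exact hn ⟨p, lt, hb lt (not_lt.1 h), Or.inl hlt.ge⟩
  have bs : 2 * ls < 2 ^ r := by
    by_contra h
    exact hn ⟨p, ls, hb ls (not_lt.1 h), Or.inr hls.ge⟩
  let g : M →ₗ[ℤ] M := (τ * σ - 1 : Module.End ℤ M) ∘ₗ ((2 ^ p : ℕ) • LinearMap.id)
  have hg : ∀ x, g x = (τ * σ - 1 : Module.End ℤ M) ((2 ^ p : ℕ) • x) := fun x => rfl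
  have hinv : ∀ b ∈ LinearMap.range g, (τ * σ) b ∈ LinearMap.range g := by
    rintro _ ⟨x, rfl⟩
    refine ⟨(τ * σ) x, ?_⟩
    rw [hg, hg, ← map_nsmul]
    simp only [LinearMap.sub_apply, Module.End.one_apply, map_sub]
  have hcard : Nat.card (LinearMap.range g) ≤ 2 ^ (2 ^ r - 1) := by
    let F : (Set.range fun m : M => (2 ^ p : ℕ) • (m + σ m)) × (Set.range fun m : M => (2 ^ p : ℕ) • (m + τ m)) → M :=
      fun z => τ z.1 - z.2
    have hsub : ((LinearMap.range g : Submodule ℤ M) : Set M) ⊆ Set.range F := by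
      rintro _ ⟨x, rfl⟩
      refine ⟨(⟨_, x, rfl⟩, ⟨_, x, rfl⟩), ?_⟩
      rw [hg]
      simp only [F, map_nsmul, map_add, LinearMap.sub_apply, Module.End.one_apply, Module.End.mul_apply, nsmul_add,
        nsmul_sub]
      abel
    calc Nat.card (LinearMap.range g) ≤ Nat.card (Set.range F) := Nat.card_mono (Set.toFinite _) hsub
      _ ≤ _ := Finite.card_range_le F
      _ = 2 ^ (ls + lt) := by rw [Nat.card_prod, Nat.card_coe_set_eq, Nat.card_coe_set_eq, hls, hlt, pow_add]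
      _ ≤ 2 ^ (2 ^ r - 1) := Nat.pow_le_pow_right (by norm_num) (by omega)
  have key := h2 M (τ * σ) e k hu hM (2 ^ r - 1) (LinearMap.range g) hinv hcard (g m) ⟨m, rfl⟩
  have e1 : (2 ^ r : ℕ) = (2 ^ r - 1) + 1 := by omega
  rw [e1, pow_succ, Module.End.mul_apply, ← hg]
  exact key

end CL.IOd
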