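/-
Project IOd, part NUM: a numerical inequality.
-/
import Cfsg.Agent.IOd.Defs

set_option autoImplicit false

open Cfsg Subgroup MulAction
open scoped Nat

namespace CL.IOd

universe u

namespace NUMx

theorem one (L n : ℕ) : L ^ n * L ! ≤ L ^ L * n ! := by
  rcases le_total n L with h | h
  · obtain ⟨k, rfl⟩ := Nat.exists_eq_add_of_le h
    have h1 := Nat.factorial_mul_descFactorial (Nat.le_add_left k n)
    rw [Nat.add_sub_cancel] at h1
    rw [← h1, pow_add, mul_assoc, mul_comm (n !)]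
    exact Nat.mul_le_mul_left _ (Nat.mul_le_mul_right _ (Nat.descFactorial_le_pow _ _))
  · obtain ⟨k, rfl⟩ := Nat.exists_eq_add_of_le h
    rw [pow_add, mul_assoc, mul_comm (L ^ k)]
    exact Nat.mul_le_mul_left _ ((Nat.mul_le_mul_left _ (Nat.pow_le_pow_left (Nat.le_succ L) k)).trans
      Nat.factorial_mul_pow_le_factorial)

theorem big (c : ℕ) : (4 * c) ^ (4 * c) ≤ (4 * c)! * 2 ^ (6 * c) := by
  have h1 := Real.pow_div_factorial_le_exp ((4 * c : ℕ) : ℝ) (Nat.cast_nonneg _) (4 * c)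
  have h2 : Real.exp 1 ^ 2 ≤ 8 := by
    have := Real.exp_one_lt_d9
    have := Real.exp_pos 1
    nlinarith
  have h3 : Real.exp ((4 * c : ℕ) : ℝ) ≤ 2 ^ (6 * c) := by
    rw [← Real.exp_one_pow, show 4 * c = 2 * (2 * c) by ring, pow_mul (Real.exp 1), show 6 * c = 3 * (2 * c) by ring, pow_mul (2 : ℝ)]
    exact pow_le_pow_left₀ (sq_nonneg _) (h2.trans (by norm_num)) _
  have h4 := h1.trans h3
  rw [div_le_iff₀ (by exact_mod_cast Nat.factorial_pos _), mul_comm ((2 : ℝ) ^ (6 * c))] at h4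
  exact_mod_cast h4

theorem small {a w w₀ : ℕ} (h : (2 ^ a) ^ 2 ^ a < (2 ^ a)! * 2 ^ (a * (w₀ + 1))) (hw : w₀ ≤ w) :
    (2 ^ a) ^ 2 ^ a < (2 ^ a)! * 2 ^ (a * (w + 1)) :=
  h.trans_le (Nat.mul_le_mul_left _ (Nat.pow_le_pow_right two_pos (Nat.mul_le_mul_left _ (by omega))))

theorem two (a w : ℕ) (ha : 1 ≤ a) (hw : 2 ^ (a - 1) ≤ 2 * w) : (2 ^ a) ^ 2 ^ a < (2 ^ a)! * 2 ^ (a * (w + 1)) := by
  rcases lt_or_ge a 6 with h | h
  · interval_cases a
    · exact small (w₀ := 1) (by decide +kernel) (by omega)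
    · exact small (w₀ := 1) (by decide +kernel) (by omega)
    · exact small (w₀ := 2) (by decide +kernel) (by omega)
    · exact small (w₀ := 4) (by decide +kernel) (by omega)
    · exact small (w₀ := 8) (by decide +kernel) (by omega)
  · obtain ⟨b, rfl⟩ : ∃ b, a = b + 2 := ⟨a - 2, by omega⟩
    have e : 2 ^ (b + 2) = 4 * 2 ^ b := by ring
    rw [show b + 2 - 1 = b + 1 by omega, pow_succ] at hw
    rw [e]
    refine (big _).trans_lt (Nat.mul_lt_mul_of_pos_left (Nat.pow_lt_pow_right one_lt_two ?_) (Nat.factorial_pos _))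
    have : 2 ^ b ≤ w := by omega
    nlinarith

end NUMx

open NUMx in
theorem num : NUM := by
  intro a n w ha hw
  refine Nat.lt_of_mul_lt_mul_right (a := (2 ^ a)!) ?_
  rw [pow_mul]
  calc _ ≤ (2 ^ a) ^ 2 ^ a * n ! := one _ _
    _ < (2 ^ a)! * 2 ^ (a * (w + 1)) * n ! := Nat.mul_lt_mul_of_pos_right (two a w ha hw) (Nat.factorial_pos _)
    _ = _ := by ring

end CL.IOd
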