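/-
Project IOd (S3929): the action on one orbit of a normal abelian subgroup.
-/
import Cfsg.Agent.IOd.Defs

set_option autoImplicit false

open Cfsg Subgroup MulAction
open scoped Nat

namespace CL.IOd

universe u

namespace ORB

variable {Q : Type u} [Group Q] {Ω : Type u} [MulAction Q Ω]

theorem mem {K X : Subgroup Q} (h : ∀ k ∈ K, ∀ ω : Ω, ∃ x ∈ X, k • ω = x • ω) (ω : Ω) (k : K)
    (o : orbit X ω) : (k : Q) • (o : Ω) ∈ orbit X ω := by
  obtain ⟨x, hx, e⟩ := h k k.2 (o : Ω)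
  obtain ⟨y, hy⟩ := o.2
  rw [e]
  refine ⟨⟨x, hx⟩ * y, ?_⟩
  show ((⟨x, hx⟩ * y : X) : Q) • ω = x • (o : Ω)
  rw [← hy]
  show (x * (y : Q)) • ω = x • ((y : Q) • ω)
  rw [mul_smul]

/-- the action of `K` on the orbit -/
def act {K X : Subgroup Q} (h : ∀ k ∈ K, ∀ ω : Ω, ∃ x ∈ X, k • ω = x • ω) (ω : Ω) :
    K →* Equiv.Perm (orbit X ω) where
  toFun k :=
    { toFun := fun o => ⟨(k : Q) • (o : Ω), mem h ω k o⟩
      invFun := fun o => ⟨((k⁻¹ : K) : Q) • (o : Ω), mem h ω k⁻¹ o⟩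
      left_inv := fun o => Subtype.ext (by simp)
      right_inv := fun o => Subtype.ext (by simp) }
  map_one' := Equiv.ext fun o => Subtype.ext (by simp)
  map_mul' a b := Equiv.ext fun o => Subtype.ext (by simp [mul_smul])

theorem act_val {K X : Subgroup Q} (h : ∀ k ∈ K, ∀ ω : Ω, ∃ x ∈ X, k • ω = x • ω) (ω : Ω) (k : K)
    (o : orbit X ω) : ((act h ω k o : orbit X ω) : Ω) = (k : Q) • (o : Ω) := rfl

end ORB

theorem orb (h1 : AUT.{u}) (h2 : POW.{u}) : ORB.{u} := by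
  intro Q _ _ Ω _ _ hQ K X hXn hab hXK h ω
  classical
  set ψ := ORB.act h ω with hps
  have hR : IsPGroup 2 ψ.range :=
    (hQ.to_subgroup K).of_surjective ψ.rangeRestrict ψ.rangeRestrict_surjective
  set Y : Subgroup ψ.range := (X.subgroupOf K).map ψ.rangeRestrict with hY
  have hYn : Y.Normal := (Subgroup.normal_subgroupOf (H := K) (N := X)).map _ ψ.rangeRestrict_surjective
  have hYab : Ab Y := by
    rintro _ ⟨a, ha, rfl⟩ _ ⟨b, hb, rfl⟩
    rw [← map_mul, ← map_mul]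
    congr 1
    exact Subtype.ext (hab _ ha _ hb)
  let b : orbit X ω := ⟨ω, mem_orbit_self ω⟩
  have htr : ∀ o : orbit X ω, ∃ y ∈ Y, ((y : ψ.range) : Equiv.Perm (orbit X ω)) b = o := by
    intro o
    obtain ⟨x, hx⟩ := o.2
    refine ⟨ψ.rangeRestrict ⟨x, hXK x.2⟩, ⟨⟨x, hXK x.2⟩, x.2, rfl⟩, Subtype.ext ?_⟩
    exact hx
  have hc : Nat.card (centralizer (Y : Set ψ.range)) ≤ Nat.card (orbit X ω) := by
    refine Nat.card_le_card_of_injective
      (fun c => (((c : ψ.range)) : Equiv.Perm (orbit X ω)) b) ?_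
    intro c d hcd
    apply Subtype.ext
    apply Subtype.ext
    apply Equiv.ext
    intro o
    obtain ⟨y, hy, rfl⟩ := htr o
    have e1 := congrArg (fun r : ψ.range => (r : Equiv.Perm (orbit X ω)) b) (c.2 y hy)
    have e2 := congrArg (fun r : ψ.range => (r : Equiv.Perm (orbit X ω)) b) (d.2 y hy)
    simp only [Subgroup.coe_mul, Equiv.Perm.mul_apply] at e1 e2 hcd
    rw [← e1, ← e2, hcd]
  have hy1 : Nat.card (orbit X ω) ≤ Nat.card Y := by
    refine Nat.card_le_card_of_surjective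
      (fun y : Y => (((y : ψ.range)) : Equiv.Perm (orbit X ω)) b) ?_
    intro o
    obtain ⟨y, hy, e⟩ := htr o
    exact ⟨⟨y, hy⟩, e⟩
  have hy2 : Nat.card Y ≤ Nat.card (centralizer (Y : Set ψ.range)) := by
    apply Subgroup.card_le_of_le
    intro y hy z hz
    exact hYab z hz y hy
  have hY2 : IsPGroup 2 Y := hR.to_subgroup Y
  obtain ⟨j, hj⟩ := IsPGroup.iff_card.mp hY2
  have hO : Nat.card (orbit X ω) = 2 ^ j := by omega
  let F : ψ.range → (orbit X ω → Ω) := fun r o => (((r : Equiv.Perm (orbit X ω)) o : orbit X ω) : Ω)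
  refine ⟨j, ?_, ?_, ?_⟩
  · rw [← Nat.card_coe_set_eq]; exact hO
  · have hsub : res X ω '' (K : Set Q) ⊆ F '' Set.univ := by
      rintro _ ⟨k, hk, rfl⟩
      exact ⟨ψ.rangeRestrict ⟨k, hk⟩, trivial, rfl⟩
    have h3 := h1 ψ.range hR j Y hYn hj
    calc (res X ω '' (K : Set Q)).ncard ≤ (F '' Set.univ).ncard :=
          Set.ncard_le_ncard hsub (Set.toFinite _)
      _ ≤ (Set.univ : Set ψ.range).ncard := Set.ncard_image_le (Set.toFinite _)
      _ = Nat.card ψ.range := Set.ncard_univ _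
      _ ≤ Nat.card (centralizer (Y : Set ψ.range)) * 2 ^ j.choose 2 := h3
      _ ≤ 2 ^ j * 2 ^ j.choose 2 := Nat.mul_le_mul_right _ (hO ▸ hc)
      _ = 2 ^ (j + j.choose 2) := (pow_add _ _ _).symm
  · intro q
    have hsub : res X ω '' pw (X : Set Q) q ⊆ F '' pw (Y : Set ψ.range) q := by
      rintro _ ⟨_, ⟨x, hx, rfl⟩, rfl⟩
      refine ⟨ψ.rangeRestrict (⟨x, hXK hx⟩ ^ 2 ^ q),
        ⟨ψ.rangeRestrict ⟨x, hXK hx⟩, ⟨⟨x, hXK hx⟩, hx, rfl⟩, (map_pow _ _ _).symm⟩, rfl⟩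
    calc (res X ω '' pw (X : Set Q) q).ncard ≤ (F '' pw (Y : Set ψ.range) q).ncard :=
          Set.ncard_le_ncard hsub (Set.toFinite _)
      _ ≤ (pw (Y : Set ψ.range) q).ncard := Set.ncard_image_le (Set.toFinite _)
      _ ≤ 2 ^ (j - q) := (h2 ψ.range Y hY2 hYab).2.2 j q hj

end CL.IOd
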