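/-
Project IOd (S3929): the order of a permutation `2`-group with an abelian normal subgroup.
-/
import Cfsg.Agent.IOd.Defs

set_option autoImplicit false

open Cfsg Subgroup MulAction
open scoped Nat

namespace CL.IOd

universe u

theorem perm (h1 : TOP.{u}) (h2 : KER.{u}) (h3 : POW.{u}) (h4 : SUMS.{u}) : PERM.{u} := by
  intro Q _ _ Ω _ _ _ _ hQ X hX hA p l hl
  have : Fact (Nat.Prime 2) := ⟨Nat.prime_two⟩
  obtain ⟨K, XK, hK, hi⟩ := h1 Q Ω hQ X hX
  have : Fintype (orbitRel.Quotient X Ω) := Fintype.ofFinite _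
  obtain ⟨j, j1, j2, j3⟩ := h2 Q Ω hQ K X hX hA XK hK
  have pX := hQ.to_subgroup X
  obtain ⟨l0, e0⟩ := IsPGroup.iff_card.1 pX
  obtain ⟨p1, p2, -⟩ := h3 Q X pX hA
  obtain ⟨l1, e1⟩ := p1 p
  obtain ⟨l2, e2⟩ := p1 (p + 1)
  have two : 1 < 2 := by norm_num
  have a1 := p2 p
  have a2 := j3 p
  have a3 := j3 (p + 1)
  rw [e0, e1, e2, ← pow_mul, ← pow_mul, ← pow_add, Nat.pow_le_pow_iff_right two, mul_comm l1, mul_comm l2] at a1
  rw [e1, Nat.pow_le_pow_iff_right two] at a2 hl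
  rw [e2, Nat.pow_le_pow_iff_right two] at a3
  have k := h4 _ j p l0 l1 l2 a1 a2 a3
  rw [j1] at k
  rw [Nat.card_eq_fintype_card] at hi
  calc Nat.card Q * 2 ^ (2 ^ p * l + 1) = Nat.card K * (2 * K.index) * 2 ^ (2 ^ p * l) := by
        rw [← K.card_mul_index]; ring
    _ ≤ 2 ^ (∑ i, (j i + (j i).choose 2)) * 2 ^ Fintype.card (orbitRel.Quotient X Ω) * 2 ^ (2 ^ p * l1) :=
        Nat.mul_le_mul (Nat.mul_le_mul j2 hi) (Nat.pow_le_pow_right two.le (Nat.mul_le_mul_left _ hl))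
    _ ≤ 2 ^ Nat.card Ω * Nat.card X := by
        rw [e0, ← pow_add, ← pow_add, ← pow_add]
        exact Nat.pow_le_pow_right two.le (by omega)

end CL.IOd
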