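/-
Project IOd: the chain of powers of an abelian 2-group.
-/
import Cfsg.Agent.IOd.Defs

set_option autoImplicit false
set_option linter.unusedSectionVars false

open Cfsg Subgroup MulAction
open scoped Nat

namespace CL.IOd

universe u

namespace POWx
variable {R : Type u} [Group R] {X : Subgroup R} (h : Ab X)

def P (q : ℕ) : Subgroup R where
  carrier := pw (X : Set R) q
  one_mem' := ⟨1, X.one_mem, one_pow _⟩
  mul_mem' := by
    rintro _ _ ⟨a, ha, rfl⟩ ⟨b, hb, rfl⟩
    exact ⟨a * b, X.mul_mem ha hb, Commute.mul_pow (h a ha b hb) _⟩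
  inv_mem' := by
    rintro _ ⟨a, ha, rfl⟩
    exact ⟨a⁻¹, X.inv_mem ha, inv_pow _ _⟩

theorem P_le (q : ℕ) : P h q ≤ X := by
  rintro _ ⟨a, ha, rfl⟩
  exact pow_mem ha _

theorem P_zero : P h 0 = X := le_antisymm (P_le h 0) fun a ha => ⟨a, ha, by simp⟩

theorem P_succ (q : ℕ) : P h (q + 1) ≤ P h q := by
  rintro _ ⟨a, ha, rfl⟩
  exact ⟨a ^ 2, pow_mem ha 2, by change (a ^ 2) ^ 2 ^ q = a ^ 2 ^ (q + 1); rw [← pow_mul, ← pow_succ']⟩

def sq (q : ℕ) : P h q →* R :=
  MonoidHom.mk' (fun x => (x : R) ^ 2) fun a b => Commute.mul_pow (h _ (P_le h q a.2) _ (P_le h q b.2)) 2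

theorem range_sq (q : ℕ) : (sq h q).range = P h (q + 1) := by
  ext x
  constructor
  · rintro ⟨⟨_, a, ha, rfl⟩, rfl⟩
    exact ⟨a, ha, by change a ^ 2 ^ (q + 1) = (a ^ 2 ^ q) ^ 2; rw [← pow_mul, ← pow_succ]⟩
  · rintro ⟨a, ha, rfl⟩
    exact ⟨⟨_, a, ha, rfl⟩, by change (a ^ 2 ^ q) ^ 2 = a ^ 2 ^ (q + 1); rw [← pow_mul, ← pow_succ]⟩

def K (q : ℕ) : Subgroup R := (sq h q).ker.map (P h q).subtype

theorem mem_K {q : ℕ} {x : R} : x ∈ K h q ↔ x ∈ P h q ∧ x ^ 2 = 1 :=
  ⟨by rintro ⟨y, hy, rfl⟩; exact ⟨y.2, hy⟩, fun k => ⟨⟨x, k.1⟩, k.2, rfl⟩⟩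

theorem card_P (q : ℕ) : Nat.card (P h q) = Nat.card (K h q) * Nat.card (P h (q + 1)) := by
  rw [K, card_map_of_injective (subtype_injective _), ← range_sq, ← index_ker, card_mul_index]

variable [Finite R]

theorem K_le (p d : ℕ) : K h (p + d) ≤ K h p := by
  induction d with
  | zero => exact le_rfl
  | succ d ih => exact le_trans (fun x hx => (mem_K h).2 ⟨P_succ h _ ((mem_K h).1 hx).1, ((mem_K h).1 hx).2⟩) ih

theorem card_le (p d : ℕ) : ∀ i, i + d = p → Nat.card (P h p) * Nat.card (K h p) ^ d ≤ Nat.card (P h i) := by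
  induction d with
  | zero => rintro i rfl; simp
  | succ d ih =>
    intro i hi
    rw [card_P h i, pow_succ, ← mul_assoc, mul_comm]
    exact Nat.mul_le_mul (hi ▸ card_le_of_le (K_le h i (d + 1))) (ih (i + 1) (by omega))

end POWx
open POWx

theorem pow' : POW.{u} := by
  intro R _ _ X hX h
  have e : ∀ q, (pw (X : Set R) q).ncard = Nat.card (P h q) := fun q => rfl
  simp only [e]
  refine ⟨fun q => IsPGroup.iff_card.1 (hX.to_le (P_le h q)), fun p => ?_, fun j q hj => ?_⟩
  · have := card_le h p p 0 (zero_add p)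
    rw [P_zero] at this
    calc _ = Nat.card (P h p) * (Nat.card (K h p) * Nat.card (P h (p + 1))) ^ p := by rw [← card_P, pow_succ']
      _ ≤ _ := by rw [mul_pow, ← mul_assoc]; exact Nat.mul_le_mul_right _ this
  · induction q with
    | zero => rw [P_zero, hj, Nat.sub_zero]
    | succ q ih =>
      by_cases hb : P h q = ⊥
      · rw [le_bot_iff.1 ((P_succ h q).trans hb.le), card_bot]
        exact Nat.one_le_two_pow
      · obtain ⟨i, hi⟩ := IsPGroup.iff_card.1 (hX.to_le (P_le h q))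
        have hi0 : i ≠ 0 := by rintro rfl; exact hb (card_eq_one.1 hi)
        obtain ⟨x, hx⟩ := exists_prime_orderOf_dvd_card' (G := P h q) 2 (hi ▸ dvd_pow_self 2 hi0)
        have h1 : (x : R) ∈ K h q := (mem_K h).2 ⟨x.2, by
          have := congrArg Subtype.val (pow_orderOf_eq_one x)
          rwa [hx] at this⟩
        have h2 : 2 ≤ Nat.card (K h q) := (one_lt_card_iff_ne_bot _).2 fun k => by
          rw [k, mem_bot, OneMemClass.coe_eq_one] at h1
          simp [h1] at hx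
        have h3 := Nat.mul_le_mul_right (Nat.card (P h (q + 1))) h2
        rw [← card_P] at h3
        have h4 : 0 < Nat.card (P h (q + 1)) := Nat.card_pos
        rcases Nat.eq_zero_or_pos (j - q) with k | k
        · rw [k] at ih; omega
        · rw [show j - q = j - (q + 1) + 1 by omega, pow_succ] at ih
          omega

end CL.IOd
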