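/-
Project IOd (S3929): two facts on unipotent endomorphisms of abelian `2`-groups.
-/
import Cfsg.Agent.IOd.Defs

set_option autoImplicit false

open Cfsg Subgroup MulAction
open scoped Nat

namespace CL.IOd

universe u

namespace RINGx

theorem add_two_pow {R : Type*} [Ring R] (x : R) (n : ℕ) : ∃ f : R, (x + 2) ^ n = x ^ n + 2 * f := by
  induction n with
  | zero => exact ⟨0, by simp⟩
  | succ n ih =>
    obtain ⟨f, hf⟩ := ih
    exact ⟨x ^ n + f * (x + 2), by rw [pow_succ, hf, pow_succ]; noncomm_ring⟩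

theorem add_one_pow {R : Type*} [Ring R] (x : R) (e : ℕ) : ∃ g : R, (x + 1) ^ 2 ^ e = x ^ 2 ^ e + 1 + 2 * g := by
  induction e with
  | zero => exact ⟨0, by simp⟩
  | succ e ih =>
    obtain ⟨g, hg⟩ := ih
    refine ⟨x ^ 2 ^ e + x ^ 2 ^ e * g + g * x ^ 2 ^ e + 2 * g + 2 * (g * g), ?_⟩
    rw [pow_succ, pow_mul, pow_mul, hg]
    generalize x ^ 2 ^ e = a
    noncomm_ring

theorem nilp {M : Type u} [AddCommGroup M] {u : Module.End ℤ M} {e k : ℕ} (hu : u ^ 2 ^ e = 1)
    (hk : Nat.card M = 2 ^ k) (m : M) : ((u - 1) ^ (2 ^ e * k) : Module.End ℤ M) m = 0 := by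
  obtain ⟨g, hg⟩ := add_one_pow (u - 1) e
  rw [sub_add_cancel, hu] at hg
  have h1 : (u - 1) ^ 2 ^ e = ((2 : ℕ) : Module.End ℤ M) * (-g) := by
    rw [Nat.cast_ofNat, mul_neg, eq_neg_iff_add_eq_zero]
    exact add_right_cancel (b := 1) (by rw [zero_add]; exact (hg.trans (add_right_comm _ _ _)).symm)
  rw [pow_mul, h1, (Nat.cast_commute 2 (-g)).mul_pow, ← Nat.cast_pow, ← hk, Module.End.mul_apply,
    Module.End.natCast_apply, card_nsmul_eq_zero']

end RINGx

theorem ring' : RING.{u} := by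
  intro M _ j
  induction j with
  | zero =>
    intro u h
    ext m
    have := h 0 0 rfl m
    simp only [pow_zero, pow_one, one_smul, LinearMap.sub_apply, sub_eq_zero] at this
    simpa using this
  | succ j ih =>
    intro u h
    rw [pow_succ', pow_mul]
    refine ih _ fun p r hpr m => ?_
    obtain ⟨f, hf⟩ := RINGx.add_two_pow (u - 1) (2 ^ r)
    have h1 := h p (r + 1) (by omega) m
    have h2 := h (p + 1) r (by omega) (f m)
    have hc : Commute (u - 1) (u - 1 + 2) := (Commute.refl _).add_right (Commute.ofNat_right _ 2)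
    rw [show u ^ 2 - 1 = (u - 1) * (u - 1 + 2) by noncomm_ring, hc.mul_pow, hf, mul_add, ← pow_add, ← mul_two,
      ← pow_succ, LinearMap.add_apply, h1, zero_add, Module.End.mul_apply, Module.End.mul_apply,
      Module.End.ofNat_apply, map_nsmul f, smul_smul, ← h2, pow_succ']

theorem nil : NIL.{u} := by
  intro M _ _ u e k hu hk l
  induction l with
  | zero =>
    intro B _ hB b hb
    have : Subsingleton B := Finite.card_le_one_iff_subsingleton.1 hB
    rw [show b = 0 from congrArg Subtype.val (Subsingleton.elim (⟨b, hb⟩ : B) 0), map_zero]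
  | succ l ih =>
    intro B hu' hB b hb
    have hle : B.map (u - 1) ≤ B := by
      rintro _ ⟨c, hc, rfl⟩
      exact sub_mem (hu' c hc) hc
    by_cases hE : B.map (u - 1) = B
    · have key : ∀ n : ℕ, ∀ b ∈ B, ∃ c ∈ B, ((u - 1) ^ n : Module.End ℤ M) c = b := by
        intro n
        induction n with
        | zero => exact fun b hb => ⟨b, hb, rfl⟩
        | succ n ihn =>
          intro b hb
          obtain ⟨c, hc, rfl⟩ := ihn b hb
          obtain ⟨d, hd, rfl⟩ := hE.ge hc
          exact ⟨d, hd, by rw [pow_succ, Module.End.mul_apply]⟩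
      obtain ⟨c, -, rfl⟩ := key (2 ^ e * k) b hb
      rw [RINGx.nilp hu hk, map_zero]
    · have hd : ∀ C : Submodule ℤ M, ∃ a, Nat.card C = 2 ^ a := fun C => by
        obtain ⟨a, -, ha⟩ := (Nat.dvd_prime_pow Nat.prime_two).1
          (hk ▸ AddSubgroup.card_addSubgroup_dvd_card C.toAddSubgroup)
        exact ⟨a, ha⟩
      obtain ⟨a, ha⟩ := hd (B.map (u - 1))
      obtain ⟨a', ha'⟩ := hd B
      have hlt : Nat.card (B.map (u - 1)) < Nat.card B :=
        Set.ncard_lt_ncard (SetLike.coe_ssubset_coe.2 (lt_of_le_of_ne hle hE)) (Set.toFinite _)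
      rw [ha, ha'] at hlt
      rw [ha'] at hB
      have h1 := (Nat.pow_lt_pow_iff_right one_lt_two).1 hlt
      have h2 := (Nat.pow_le_pow_iff_right one_lt_two).1 hB
      rw [pow_succ, Module.End.mul_apply]
      refine ih (B.map (u - 1)) ?_ (ha ▸ Nat.pow_le_pow_right two_pos (by omega)) _ ⟨b, hb, rfl⟩
      rintro _ ⟨c, hc, rfl⟩
      refine ⟨u c, hu' c hc, ?_⟩
      simp only [LinearMap.sub_apply, Module.End.one_apply, map_sub]

end CL.IOd
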