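/-
Project IOd (S3929): the numerical step SUMS.
-/
import Cfsg.Agent.IOd.Defs

set_option autoImplicit false

open Cfsg Subgroup MulAction
open scoped Nat

namespace CL.IOd

universe u

namespace SUMSx

theorem le_pw (j : ℕ) : j + 1 ≤ 2 ^ j := Nat.lt_two_pow_self

theorem ch (j : ℕ) : 1 + (j + 1).choose 2 ≤ 2 ^ j := by
  induction j with
  | zero => simp
  | succ k ih =>
    have h : (k + 1 + 1).choose 2 = (k + 1) + (k + 1).choose 2 := by
      rw [Nat.choose_succ_succ' (k + 1) 1, Nat.choose_one_right]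
    have h2 := le_pw k
    rw [h, pow_succ]
    omega

theorem pt (p c j : ℕ) (hc : 2 ^ p = c + (p + 1)) :
    1 + (j + j.choose 2) + (c * (j - p) + p * (j - (p + 1))) ≤ 2 ^ j := by
  rcases j with _ | k
  · simp
  have ha := ch k
  have hb : (k + 1) + (c * (k + 1 - p) + p * (k + 1 - (p + 1))) ≤ 2 ^ k := by
    rcases Nat.lt_or_ge k p with h | h
    · have e1 : k + 1 - p = 0 := by omega
      have e2 : k + 1 - (p + 1) = 0 := by omega
      rw [e1, e2]
      simpa using le_pw k
    · obtain ⟨d, rfl⟩ := Nat.exists_eq_add_of_le h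
      have e1 : p + d + 1 - p = d + 1 := by omega
      have e2 : p + d + 1 - (p + 1) = d := by omega
      rw [e1, e2, pow_add, hc]
      have h3 := Nat.mul_le_mul_left (c + (p + 1)) (le_pw d)
      have e3 : (c + (p + 1)) * (d + 1) = p + d + 1 + (c * (d + 1) + p * d) := by ring
      omega
  rw [pow_succ]
  omega

end SUMSx

theorem sums : SUMS.{u} := by
  intro ι _ j p l₀ l₁ l₂ h0 h1 h2
  obtain ⟨c, hc⟩ : ∃ c, 2 ^ p = c + (p + 1) := ⟨2 ^ p - (p + 1), by have := SUMSx.le_pw p; omega⟩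
  have hs : ∑ i, (1 + (j i + (j i).choose 2) + (c * (j i - p) + p * (j i - (p + 1)))) ≤ ∑ i, 2 ^ j i :=
    Finset.sum_le_sum fun i _ => SUMSx.pt p c (j i) hc
  rw [Finset.sum_add_distrib, Finset.sum_add_distrib, Finset.sum_add_distrib (f := fun i => c * (j i - p)),
    ← Finset.mul_sum, ← Finset.mul_sum] at hs
  have hk : ∑ _i : ι, 1 = Fintype.card ι := by simp
  rw [hk] at hs
  have a1 := Nat.mul_le_mul_left c h1
  have a2 := Nat.mul_le_mul_left p h2
  rw [hc, add_mul]
  omega

end CL.IOd
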