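/-
Project IOd (S3929), step TOP: the action on the orbits of a normal subgroup.
-/
import Cfsg.Agent.IOd.Defs

set_option autoImplicit false

open Cfsg Subgroup MulAction
open scoped Nat

namespace CL.IOd

universe u

namespace TOPx

variable {Q Ω : Type u} [Group Q] [MulAction Q Ω]

/-- the action of one element on the orbits -/
def mv (X : Subgroup Q) (hX : X.Normal) (g : Q) : orbitRel.Quotient X Ω → orbitRel.Quotient X Ω :=
  Quotient.map' (fun ω => g • ω) fun a b h => by
    obtain ⟨x, hx⟩ := orbitRel_apply.1 h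
    refine orbitRel_apply.2 ⟨⟨g * x * g⁻¹, hX.conj_mem _ x.2 g⟩, ?_⟩
    change (g * x * g⁻¹) • g • b = g • a
    rw [← hx, ← mul_smul, inv_mul_cancel_right, mul_smul]
    rfl

/-- the action on the orbits -/
@[reducible] def act (X : Subgroup Q) (hX : X.Normal) : MulAction Q (orbitRel.Quotient X Ω) where
  smul := mv X hX
  one_smul i := Quotient.inductionOn' i fun ω => congrArg Quotient.mk'' (one_smul Q ω)
  mul_smul g h i := Quotient.inductionOn' i fun ω => congrArg Quotient.mk'' (mul_smul g h ω)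

theorem two_pow {e d : ℕ} (hd : d ≠ 0) (h : 2 ^ e ∣ d !) : 2 * 2 ^ e ≤ 2 ^ d := by
  have h1 := (le_emultiplicity_of_pow_dvd h).trans_lt (Nat.emultiplicity_two_factorial_lt hd)
  have h2 : e < d := by exact_mod_cast h1
  rw [← pow_succ']
  exact Nat.pow_le_pow_right (by norm_num) h2

end TOPx

theorem top' : TOP.{u} := by
  intro Q _ _ Ω _ _ _ hQ X hX
  letI := TOPx.act (Ω := Ω) X hX
  have hs : ∀ (g : Q) (ω : Ω), g • (Quotient.mk'' ω : orbitRel.Quotient X Ω) = Quotient.mk'' (g • ω) :=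
    fun _ _ => rfl
  let ph : Q →* Equiv.Perm (orbitRel.Quotient X Ω) := toPermHom Q _
  refine ⟨ph.ker, fun x hx => ?_, fun k hk ω => ?_, ?_⟩
  · rw [MonoidHom.mem_ker]
    refine Equiv.ext fun i => Quotient.inductionOn' i fun ω => ?_
    change x • (Quotient.mk'' ω : orbitRel.Quotient X Ω) = Quotient.mk'' ω
    rw [hs]
    exact Quotient.sound' (orbitRel_apply.2 ⟨⟨x, hx⟩, rfl⟩)
  · have h1 : k • (Quotient.mk'' ω : orbitRel.Quotient X Ω) = Quotient.mk'' ω :=
      Equiv.congr_fun (MonoidHom.mem_ker.1 hk) (Quotient.mk'' ω)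
    rw [hs] at h1
    obtain ⟨x, hx⟩ := orbitRel_apply.1 (Quotient.exact' h1)
    exact ⟨x, x.2, hx.symm⟩
  · haveI : Fact (Nat.Prime 2) := ⟨Nat.prime_two⟩
    obtain ⟨e, he⟩ := hQ.index ph.ker
    have hd : ph.ker.index ∣ (Nat.card (orbitRel.Quotient X Ω))! := by
      rw [index_ker, ← Nat.card_perm]
      exact card_subgroup_dvd_card _
    have : Nonempty (orbitRel.Quotient X Ω) := ⟨Quotient.mk'' (Classical.arbitrary Ω)⟩
    rw [he] at hd ⊢
    exact TOPx.two_pow Nat.card_pos.ne' hd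

end CL.IOd
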